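import Cfsg.Agent.Nodes.HasRGD
import Cfsg.Agent.FixBN.NodeRGD
import Cfsg.Agent.H565.OddBorel

/-!
# Root group data whose nodes satisfy a braid relation

* `NodeBr n X` : every fundamental root group contains `a ≠ 1` with `n = a (n a n⁻¹) a`;
* `three_dvd_of_node` : a subgroup containing `U` and representing the simple reflection `i` has order divisible by
  three;
* `HasBr p G` : `G` has a generating root group datum with `NodeBr`.
-/

set_option autoImplicit false
set_option linter.unusedSectionVars false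

namespace Cfsg.Agent.H565.Br

open CoxeterSystem Cfsg.Agent.ChevalleyStructure.CoxeterGeom Cfsg.Agent.Tits.Roots Cfsg.Agent.Tits.Core
  Cfsg.Agent.Tits.RootComb Cfsg.Agent.Nodes.Comb Cfsg.Agent.Nodes.Reps Cfsg.Agent.Nodes.BNOf
  Cfsg.Agent.Nodes.StabComb Cfsg.Agent.Nodes.Bruhat Cfsg.Agent.Nodes.OppDec Cfsg.Agent.Nodes.LeviDec
open Cfsg.Agent.H248.TitsRGD

/-- every fundamental root group contains `a ≠ 1` with `n = a (n a n⁻¹) a` -/
def NodeBr {G : Type*} [Group G] {I : Type*} [DecidableEq I] (n : I → G) (X : (I → ℤ) → Subgroup G) : Prop :=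
  ∀ i, ∃ a ∈ X (sr i), a ≠ 1 ∧ n i = a * (n i * a * (n i)⁻¹) * a

/-- a root group datum of characteristic `p` whose root groups generate, with `NodeBr` -/
def HasBr (p : ℕ) (G : Type*) [Group G] : Prop :=
  ∃ (l : ℕ) (M : CoxeterMatrix (Fin l)) (A : Fin l → Fin l → ℤ) (h : IsCartan M A) (T : Subgroup G) (n : Fin l → G)
    (X : (Fin l → ℤ) → Subgroup G), Finite M.Group ∧ RGD M.toCoxeterSystem h p T n X ∧
      Nodes.RGDLib.G1 M.toCoxeterSystem h X = ⊤ ∧ NodeBr n X

theorem HasBr.of_equiv {p : ℕ} {G H : Type*} [Group G] [Group H] (e : G ≃* H) (hG : HasBr p G) : HasBr p H := by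
  obtain ⟨l, M, A, h, T, n, X, hW, R, hX, h3⟩ := hG
  refine ⟨l, M, A, h, T.map e.toMonoidHom, fun i => e (n i), fun x => (X x).map e.toMonoidHom, hW,
    Nodes.RGDLib.rgd_map_of_injective R e.toMonoidHom e.injective, ?_, fun i => ?_⟩
  · have h1 : (Nodes.RGDLib.G1 M.toCoxeterSystem h X).map e.toMonoidHom =
        Nodes.RGDLib.G1 M.toCoxeterSystem h (fun x => (X x).map e.toMonoidHom) := by
      unfold Nodes.RGDLib.G1 RGD.Sup
      rw [Subgroup.map_iSup]
    rw [← h1, hX, Subgroup.map_top_of_surjective _ e.surjective]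
  · obtain ⟨a, ha, h1, h4⟩ := h3 i
    refine ⟨e a, Subgroup.mem_map_of_mem _ ha, fun h => h1 (e.injective (by rw [h, map_one])), ?_⟩
    rw [← map_inv, ← map_mul, ← map_mul, ← map_mul, ← map_mul, ← h4]

section Core

variable {G : Type*} [Group G]

/-- `n = a b a`, `b = n a n⁻¹`, `a b` of order prime to three imply `a = b`. -/
theorem eq_of_braid [Finite G] {a b n : G} (hn : n = a * b * a) (hb : n * a * n⁻¹ = b) {P : Subgroup G} (ha : a ∈ P)
    (hbP : b ∈ P) (h3 : ¬ 3 ∣ Nat.card P) : a = b := by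
  have h1 : n * a = b * n := by rw [← hb]; group
  -- the braid relation
  have h2 : b * a * b = a * b * a := by
    rw [hn] at h1
    have h4 : (b * a * b) * a = (a * b * a) * a := by
      calc (b * a * b) * a = b * (a * b * a) := by group
        _ = a * b * a * a := h1.symm
        _ = _ := by group
    exact mul_right_cancel h4
  have hcube : (a * b) ^ 3 = n * n := by
    calc (a * b) ^ 3 = (a * b * a) * (b * a * b) := by
          rw [pow_succ, pow_two]; group
      _ = n * n := by rw [h2, ← hn]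
  have h5 : n * b = a * n := by
    rw [hn]
    calc a * b * a * b = a * (b * a * b) := by group
      _ = a * (a * b * a) := by rw [h2]
  -- `n ^ 2` commutes with `a`
  have h6 : (a * b) ^ 3 * a = a * (a * b) ^ 3 := by
    rw [hcube]
    calc n * n * a = n * (n * a) := by group
      _ = n * (b * n) := by rw [h1]
      _ = (n * b) * n := by group
      _ = a * n * n := by rw [h5]
      _ = _ := by group
  have h7 : (a * b) ^ 3 ∈ Subgroup.centralizer ({a} : Set G) := Subgroup.mem_centralizer_singleton_iff.2 h6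
  have h8 : (a * b) ^ Nat.card P ∈ Subgroup.centralizer ({a} : Set G) := by
    have h9 : (a * b) ^ Nat.card P = 1 :=
      congrArg Subtype.val (pow_card_eq_one' (x := (⟨a * b, P.mul_mem ha hbP⟩ : P)))
    rw [h9]
    exact Subgroup.one_mem _
  have h9 : (3 : ℕ).Coprime (Nat.card P) := (Nat.Prime.coprime_iff_not_dvd Nat.prime_three).2 h3
  have h10 : a * b ∈ Subgroup.centralizer ({a} : Set G) := by
    have h11 : (a * b) ^ ((Nat.gcd 3 (Nat.card P) : ℕ) : ℤ) ∈ Subgroup.centralizer ({a} : Set G) := by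
      rw [Nat.gcd_eq_gcd_ab, zpow_add, zpow_mul, zpow_mul]
      exact mul_mem (zpow_mem (by simpa using h7) _) (zpow_mem (by simpa using h8) _)
    rw [h9, Nat.cast_one, zpow_one] at h11
    exact h11
  have h11 : a * b * a = a * (a * b) := Subgroup.mem_centralizer_singleton_iff.1 h10
  have h12 : b * a = a * b := by
    have : a * (b * a) = a * (a * b) := by rw [← mul_assoc, h11]
    exact mul_left_cancel this
  rw [h12] at h2
  have h13 : a * b * b = a * b * a := h2
  exact (mul_left_cancel h13).symm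

end Core

section Rgd

variable {I W Y : Type*} [Fintype I] [DecidableEq I] [Group W] [Group Y] {M : CoxeterMatrix I}
  {cs : CoxeterSystem M W} {A : I → I → ℤ} {h : IsCartan M A} {p : ℕ} {T : Subgroup Y} {n : I → Y}
  {X : (I → ℤ) → Subgroup Y}

/-- **A subgroup containing `U` and representing a simple reflection has order divisible by three.** -/
theorem three_dvd_of_node (R : RGD cs h p T n X) [Finite W] [Finite Y] (hbr : NodeBr n X) {P : Subgroup Y}
    (hP : RGD.Sup X (RGD.Pos cs h) ≤ P) {i : I} (hi : i ∈ JU T n P) : 3 ∣ Nat.card P := by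
  by_contra h3
  obtain ⟨t, ht, hk⟩ := hi
  obtain ⟨a, ha, ha1, hn⟩ := hbr i
  have hXP : X (sr i) ≤ P :=
    (RGD.le_Sup (show sr i ∈ RGD.Pos cs h from ⟨isRoot_sr cs h i, sr_nonneg i⟩)).trans hP
  have hX : cj (n i) (X (sr i)) = X (-sr i) := by
    rw [R.conj i _ (isRoot_sr cs h i), rep_simple_sr]
  have hX' : cj (t * n i) (X (sr i)) = X (-sr i) := by
    rw [cj_mul, hX, R.tor _ (isRoot_sr cs h i).neg t ht]
  have hbX : n i * a * (n i)⁻¹ ∈ X (-sr i) := by
    rw [← hX, mem_cj]
    have e : (n i)⁻¹ * (n i * a * (n i)⁻¹) * n i = a := by group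
    rw [e]
    exact ha
  -- `X (-α_i) ≤ P`
  have hbP : n i * a * (n i)⁻¹ ∈ P := by
    have h1 := hbX
    rw [← hX', mem_cj] at h1
    have e : n i * a * (n i)⁻¹ = (t * n i) * ((t * n i)⁻¹ * (n i * a * (n i)⁻¹) * (t * n i)) * (t * n i)⁻¹ := by
      group
    rw [e]
    exact P.mul_mem (P.mul_mem hk (hXP h1)) (P.inv_mem hk)
  have h4 := eq_of_braid hn rfl (hXP ha) hbP h3
  rw [← h4] at hbX
  exact FixBN.NodeRGD.not_mem_B_of_neg R i hbX ha1 (RGD.X_le_B (isRoot_sr cs h i) (sr_nonneg i) ha)

/-- **The overgroups of `U` of order prime to three normalise `U`.** -/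
theorem le_normalizer_of_three (R : RGD cs h p T n X) [Finite W] [Finite Y] (hbr : NodeBr n X) {P : Subgroup Y}
    (hP : RGD.Sup X (RGD.Pos cs h) ≤ P) (hG : P ≤ GG cs h T X) (h3 : ¬ 3 ∣ Nat.card P) :
    P ≤ Subgroup.normalizer (RGD.Sup X (RGD.Pos cs h) : Set Y) := by
  have h1 := le_PJ R hP hG
  have h2 : JU T n P = ∅ := by
    rw [Set.eq_empty_iff_forall_notMem]
    exact fun i hi => h3 (three_dvd_of_node R hbr hP hi)
  rw [h2, KFacts.RgdVJ.PJ_empty R] at h1
  exact h1.trans R.B_le_normalizer_U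

end Rgd

end Cfsg.Agent.H565.Br
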