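import Cfsg.Prelude.Def_LieTypeChar
import Cfsg.Agent.H685.ThreePSL
import Cfsg.Agent.H565.Braid

/-!
# Braid relation: `PSL_n` of any characteristic
-/

set_option autoImplicit false

namespace Cfsg.Agent.H565.Br

open Matrix CoxeterSystem Cfsg.Agent.ChevalleyStructure.CoxeterGeom Cfsg.Agent.Tits.Roots
open Cfsg.Agent.Nodes Cfsg.Agent.Nodes.Reps Cfsg.Agent.Nodes.BNOf Cfsg.Agent.Nodes.RGDLib Cfsg.Agent.Nodes.RootsA
open Cfsg.Agent.LieRecognition.BNCox (cA)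
open Cfsg.Agent.TitsThree.KSideA (tv tv_of_ne tv_add tv_zero tv_neg tv_comm tv_commute diag2n_eq)

section PSL

variable {n : ℕ} {F : Type*} [Field F]

theorem ns_conj (i : Fin n) :
    RGDTypeA.ns n F i * tv i.castSucc i.succ 1 * (RGDTypeA.ns n F i)⁻¹ = tv i.succ i.castSucc (-1) := by
  have hne : i.castSucc ≠ i.succ := (Fin.castSucc_lt_succ).ne
  rw [(RGDTypeA.mono_ns i).conj_tv hne, Equiv.swap_apply_left, Equiv.swap_apply_right]
  congr 1
  have e1 : (RGDTypeA.ns n F i).1 i.succ i.castSucc = -1 := by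
    rw [RGDTypeA.apply_eq_smul, RGDTypeA.ns, RGDTypeA.nn_smul hne one_ne_zero, if_neg hne.symm, if_pos rfl,
      Pi.single_eq_same]
    norm_num
  have e2 : (RGDTypeA.ns n F i).1 i.castSucc i.succ = 1 := by
    rw [RGDTypeA.apply_eq_smul, RGDTypeA.ns, RGDTypeA.nn_smul hne one_ne_zero, if_pos rfl, Pi.single_eq_same, one_mul]
  rw [e1, e2]
  norm_num

theorem ns_eq (i : Fin n) :
    RGDTypeA.ns n F i = tv i.castSucc i.succ 1 * tv i.succ i.castSucc (-1) * tv i.castSucc i.succ 1 := by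
  rw [RGDTypeA.ns, RGDTypeA.nn, inv_one]

theorem tv_ne (i : Fin n) (s : F) : tv i.succ i.castSucc s ≠ tv i.castSucc i.succ 1 := by
  intro e
  have hne : i.castSucc ≠ i.succ := (Fin.castSucc_lt_succ).ne
  have h1 := congrArg (fun g : SpecialLinearGroup (Fin (n + 1)) F => g.1 i.castSucc i.succ) e
  simp only [RGDTypeA.tv_val hne, RGDTypeA.tv_val hne.symm, Matrix.add_apply, Matrix.one_apply_ne hne,
    Matrix.single_apply_same, zero_add] at h1
  rw [Matrix.single_apply_of_ne] at h1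
  · exact zero_ne_one h1
  · rintro ⟨h3, -⟩
    exact hne h3.symm

theorem nodeBr_psl :
    NodeBr (fun i => RGDTypeA.pr n F (RGDTypeA.ns n F i))
      (fun x => (RGDTypeA.X F x).map (RGDTypeA.pr n F)) := by
  intro i
  refine ⟨RGDTypeA.pr n F (tv i.castSucc i.succ 1), Subgroup.mem_map_of_mem _ ?_, ?_, ?_⟩
  · rw [RGDTypeA.X_sr]
    exact RGDTypeA.tv_mem_XX _ _ _
  · intro h1
    have h3 : tv i.castSucc i.succ (1 : F) ∈ (RGDTypeA.pr n F).ker := h1
    rw [RGDTypeA.ker_pr, Subgroup.mem_center_iff] at h3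
    have h4 := h3 (RGDTypeA.ns n F i)
    have h5 := ns_conj (F := F) i
    rw [h4, mul_inv_cancel_right] at h5
    exact tv_ne i _ h5.symm
  · change RGDTypeA.pr n F (RGDTypeA.ns n F i) =
      _ * (RGDTypeA.pr n F (RGDTypeA.ns n F i) * _ * (RGDTypeA.pr n F (RGDTypeA.ns n F i))⁻¹) * _
    rw [← map_inv, ← map_mul, ← map_mul, ← map_mul, ← map_mul, ns_conj, ← ns_eq]

end PSL

theorem hasBr_PSL {p : ℕ} [Fact p.Prime] {F : Type*} [Field F] [Finite F] (n : ℕ) [CharP F p] :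
    HasBr p (Matrix.ProjectiveSpecialLinearGroup (Fin (n + 1)) F) :=
  have : Finite (cA n).Group := RootsA.finite_W (cA n).toCoxeterSystem (RootsA.isCartan n)
  ⟨n, cA n, RootsA.AA n, RootsA.isCartan n, _, _, _, ‹Finite (cA n).Group›,
    RGDTypeA.rgd_psl _ _, RGDTypeA.G1_psl_eq_top _ _, nodeBr_psl⟩

/-- **`PSL_n`.** -/
theorem hasBr_psl {p : ℕ} [Fact p.Prime] {G : Type*} [Group G] (hG : Cfsg.IsPSLChar p G) : HasBr p G := by
  obtain ⟨F, _, _, _, n, hn, -, ⟨e⟩⟩ := hG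
  obtain ⟨n, rfl⟩ : ∃ k, n = k + 1 := ⟨n - 1, by omega⟩
  exact (hasBr_PSL n).of_equiv e.symm

end Cfsg.Agent.H565.Br
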