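import Cfsg.Agent.H685.ThreeExc
import Cfsg.Agent.H565.BrPSL

/-!
# Braid relation: the exceptional Chevalley groups, `²E₆(q)` and `³D₄(q)`
-/

set_option autoImplicit false
set_option linter.unusedSectionVars false
set_option maxHeartbeats 400000

namespace Cfsg.Agent.H565.Br

open CoxeterSystem Cfsg.Agent.ChevalleyStructure.CoxeterGeom Cfsg.Agent.Tits.Roots Cfsg.Agent.Tits.Core
  Cfsg.Agent.Tits.RootComb Cfsg.Agent.Nodes.Comb Cfsg.Agent.Nodes.Reps Cfsg.Agent.Nodes.BNOf Cfsg.Agent.Nodes.BNOf.RGD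
open Cfsg.Lie Cfsg.Agent.ChevalleyStructure Cfsg.Agent.ChevalleyStructure.Elts
  Cfsg.Agent.ChevalleyStructure.NPerm Cfsg.Agent.ChevalleyStructure.CoxeterGeomTypes Cfsg.Agent.Nodes.RGDChev Cfsg.Agent.Nodes.RGDFold Cfsg.Agent.Nodes.RGDFoldSL
open Cfsg.Agent.ChevalleyStructure.SL2Hom (up lo)
open Cfsg.Agent.H685.Three (wS_conj up_zero wS_eq)

universe u

section SL

variable {F : Type*} [Field F]

theorem wS_conj' : (wS (1 : F) : Matrix.SpecialLinearGroup (Fin 2) F) * up 1 * (wS 1)⁻¹ = lo (-(1 : F)⁻¹) := by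
  rw [lo_eq]
  have h1 : -(-(1 : F)⁻¹) = 1 := by rw [neg_neg, inv_one]
  rw [h1]

/-- A node homomorphism from `SL(2, F)`. -/
theorem nodeBr_sl {G : Type*} [Group G] (φ : Matrix.SpecialLinearGroup (Fin 2) F →* G) {S : Subgroup G}
    (hS : φ (up 1) ∈ S) (h1 : φ (up 1) ≠ 1) {n : G} (hn : φ (wS 1) = n) :
    ∃ a ∈ S, a ≠ 1 ∧ n = a * (n * a * n⁻¹) * a := by
  refine ⟨φ (up 1), hS, h1, ?_⟩
  rw [← hn, ← map_inv, ← map_mul, ← map_mul, ← map_mul, ← map_mul, wS_conj', ← wS_eq]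

end SL

section Chev

variable {D : ChevalleyDatum} {l : ℕ} {M : CoxeterMatrix (Fin l)}

theorem nodeBr_chev (hp : IsType D l M) (K : Type u) [Field K] :
    NodeBr (fun i => (⟨nn hp K i, nn_mem_group hp i⟩ : ↥(D.group K)))
      (fun x => (XV D l K x).subgroupOf (D.group K)) := by
  intro i
  have h := simple_lt hp.inList (lt_rank hp i)
  have hmem : ∀ g, psi hp.inList K (D.simple i) g ∈ D.group K := by
    intro g
    have h1 := psi_mem (K := K) hp.inList h g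
    rw [← XV_sr hp, ← XV_neg_sr hp] at h1
    exact sup_le (XV_le_group hp _) (XV_le_group hp _) h1
  refine nodeBr_sl ((psi hp.inList K (D.simple i)).codRestrict (D.group K) hmem) ?_ ?_ ?_
  · rw [Subgroup.mem_subgroupOf, XV_sr hp]
    show psi hp.inList K (D.simple i) (up 1) ∈ D.rootSubgroup K (D.simple i)
    rw [psi_up hp.inList h]
    exact xG_mem_rootSubgroup hp.inList _ _
  · intro h1
    have h3 : psi hp.inList K (D.simple i) (up 1) = 1 := congrArg Subtype.val h1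
    rw [psi_up hp.inList h, ← xG_zero hp.inList (D.simple i)] at h3
    exact one_ne_zero (xG_injective hp.inList h h3)
  · apply Subtype.ext
    exact psi_wS hp.inList h 1

theorem hasBr_group {p : ℕ} [Fact p.Prime] (hp : IsType D l M) (K : Type u) [Field K] [Finite K] [CharP K p] :
    HasBr p ↥(D.group K) :=
  ⟨l, M, cartanOf D l, hp.isCartan, _, _, _, finite_W hp M.toCoxeterSystem,
    rgd (K := K) hp M.toCoxeterSystem p, G1_eq_top hp _, nodeBr_chev hp K⟩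

/-- **The exceptional Chevalley groups.** -/
theorem hasBr_exc {p : ℕ} [Fact p.Prime] {G : Type*} [Group G] (hG : Cfsg.IsExceptionalChevChar p G) :
    HasBr p G := by
  obtain ⟨F, _, _, _, ⟨-, ⟨e⟩⟩ | ⟨⟨e⟩⟩ | ⟨⟨e⟩⟩ | ⟨⟨e⟩⟩ | ⟨⟨e⟩⟩⟩ := hG
  · exact (hasBr_group (l := 2) (M := CoxeterMatrix.G₂) (by simp [IsType, typeList]) F).of_equiv e.symm
  · exact (hasBr_group (l := 4) (M := CoxeterMatrix.F₄) (by simp [IsType, typeList]) F).of_equiv e.symm
  · exact (hasBr_group (l := 6) (M := CoxeterMatrix.E₆) (by simp [IsType, typeList]) F).of_equiv e.symm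
  · exact (hasBr_group (l := 7) (M := CoxeterMatrix.E₇) (by simp [IsType, typeList]) F).of_equiv e.symm
  · exact (hasBr_group (l := 8) (M := CoxeterMatrix.E₈) (by simp [IsType, typeList]) F).of_equiv e.symm

end Chev

section Fold

variable {D : ChevalleyDatum} {l : ℕ} {M' : CoxeterMatrix (Fin l)} {hp : IsType D l M'} {K : Type u} [Field K]
  {m : ℕ} {M : CoxeterMatrix (Fin m)} {A : Fin m → Fin m → ℤ}
  {J : Fin m → List (Fin l)} {L : List (List ℕ)} {σ : GL D.Idx K →* GL D.Idx K} {ρ ρ' : ℕ → ℕ}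
  {f : ℕ → K → K} {G : Subgroup (GL D.Idx K)}

theorem nodeBr_fold (FG : FoldGrp hp K J L σ ρ ρ' f G) {i : Fin m} {r : ℕ}
    {o : List ℕ} (N : NodeOK D J L ρ i r o) {φ : K →+* K} (hf : ∀ s ∈ r :: o, ∀ t, f s t = φ t) :
    ∃ a ∈ (R D hp K J σ (sr i)).subgroupOf G, a ≠ 1 ∧
      (⟨nI hp K (J i), FG.nG i⟩ : ↥G) = a * ((⟨nI hp K (J i), FG.nG i⟩ : ↥G) * a *
        (⟨nI hp K (J i), FG.nG i⟩ : ↥G)⁻¹) * a := by
  refine nodeBr_sl (Phi FG N hf) ?_ ?_ (Phi_wS FG N hf)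
  · rw [mem_X_iff FG N hf]
    exact ⟨1, rfl⟩
  · intro h1
    have h3 : (1 : Fx φ (o.length + 1)) = 0 := by
      refine Phi_up_injective FG N hf ?_
      show Phi FG N hf (up 1) = Phi FG N hf (up 0)
      rw [h1, up_zero, map_one]
    exact one_ne_zero h3

theorem hasBr_fold {p : ℕ} [Fact p.Prime] [Finite K] [CharP K p] (h : IsCartan M A)
    (FD : FoldData D M A J L) (FG : FoldGrp hp K J L σ ρ ρ' f G) (r : Fin m → ℕ) (o : Fin m → List ℕ)
    (N : ∀ i, NodeOK D J L ρ i (r i) (o i)) {φ : K →+* K} (hf : ∀ i, ∀ s ∈ r i :: o i, ∀ t, f s t = φ t) :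
    HasBr p ↥G :=
  ⟨m, M, A, h, _, _, _, Nodes.RGDFold.finite_W (hp := hp) M.toCoxeterSystem h FD,
    Nodes.RGDFold.rgd M.toCoxeterSystem h FD FG p, Nodes.RGDFold.G1_eq_top M.toCoxeterSystem h FD FG p,
    fun i => nodeBr_fold FG (N i) (hf i)⟩

end Fold

theorem hasBr_D4 {p : ℕ} [Fact p.Prime] {K : Type u} [Field K] [Fintype K] {q : ℕ} (hq : IsPrimePow q)
    (hK : Fintype.card K = q ^ 3) [CharP K p] : HasBr p ↥(twistedD4 K q) := by
  obtain ⟨φ, hφ⟩ := D4Fixed.exists_frob hq hK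
  exact hasBr_fold Nodes.RGDTwD4.isCartan Nodes.RGDTwD4.foldData
    (Nodes.RGDTwD4.foldGrp hφ (D4Fixed.twisted_le_fix hK hφ)) _ _ Nodes.RGDTwNode.D4.nodeOK (φ := φ)
    fun i s hs t => by rw [Nodes.RGDTwNode.D4.eps_one i s hs, Int.cast_one, one_mul]

theorem hasBr_E6 {p : ℕ} [Fact p.Prime] {K : Type u} [Field K] [Fintype K] {q : ℕ} (hq : IsPrimePow q)
    (hK : Fintype.card K = q ^ 2) [CharP K p] : HasBr p ↥(twistedE6 K q) := by
  obtain ⟨φ, hφ, hqq⟩ := TwE6Basic.exists_frob hq hK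
  exact hasBr_fold Nodes.RGDTwE6.isCartan Nodes.RGDTwE6.foldData
    (Nodes.RGDTwE6.foldGrp hφ hqq) _ _ Nodes.RGDTwNode.E6.nodeOK (φ := φ)
    fun i s hs t => by rw [Nodes.RGDTwNode.E6.eps_one i s hs, Int.cast_one, one_mul]

/-- **`²E₆(q)`, `³D₄(q)`.** -/
theorem hasBr_tw {p : ℕ} [Fact p.Prime] {G : Type*} [Group G] (hG : Cfsg.IsTwistedE6D4Char p G) : HasBr p G := by
  obtain ⟨K, _, _, _, q, hq, ⟨hK, ⟨e⟩⟩ | ⟨hK, ⟨e⟩⟩⟩ := hG
  · exact (hasBr_E6 hq hK).of_equiv e.symm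
  · exact (hasBr_D4 hq hK).of_equiv e.symm

end Cfsg.Agent.H565.Br
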