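import Cfsg.Agent.H685.ThreeWitt
import Cfsg.Agent.H565.BrPSL

/-!
# Braid relation: symplectic, unitary and orthogonal groups of every characteristic
-/

set_option autoImplicit false
set_option linter.unusedSectionVars false

namespace Cfsg.Agent.H565.Br

open Cfsg Cfsg.Agent.ChevalleyStructure.CoxeterGeom Cfsg.Agent.Tits.Roots
open Cfsg.Agent.Nodes
open Cfsg.Agent.Nodes.Comb Cfsg.Agent.Nodes.Reps Cfsg.Agent.Nodes.WittRoot Cfsg.Agent.Nodes.BNOf
open Cfsg.Agent.Nodes.RGDLib Cfsg.Agent.Nodes.WittAll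
open Cfsg.Agent.TitsThree Cfsg.Agent.TitsThree.Siegel Cfsg.Agent.TitsThree.WittFrame
  Cfsg.Agent.TitsThree.WittWeyl Cfsg.Agent.TitsThree.FrameCN
open Cfsg.Agent.H685.Three (frame_nX_conj frame_X_ne not_line_X not_line_Z)

/-! ### The relations in a frame -/

section FrameLevel

variable {F : Type*} [Field F] {V : Type*} [AddCommGroup V] [Module F V] {H : HForm F V}
  {ι : Type*} [DecidableEq ι] (Fr : Frame H ι)

/-- the admissible pairs for which the third factor of `nZ` is the first one -/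
def BrAdm (p : Fr.Adm) : Prop :=
  p.c ≠ 0 ∧ (p.w = 0 ∨ H.σ p.c = H.ε * p.c)

variable {Fr}

theorem nZ_eq (x : ι × Bool) {p : Fr.Adm} (hp : BrAdm Fr p) :
    nZ Fr x p = Fr.Z x p * Fr.Z (neg x) (Frame.Adm.smul (-(Fr.η x * (H.σ p.c)⁻¹)) p) * Fr.Z x p := by
  obtain ⟨hc, hw⟩ := hp
  have hε := H.ε_ne
  have hσ : H.σ p.c ≠ 0 := by simpa using hc
  have h1 : Frame.Adm.smul (H.ε * p.c * (H.σ p.c)⁻¹) p = p := by
    rcases hw with hw | hw
    · have h2 : H.ε * p.c + H.σ p.c = 0 := by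
        rw [p.herm, hw, H.zero_left, neg_zero]
      have h3 : H.ε * p.c * (H.σ p.c)⁻¹ = -1 := by
        rw [eq_neg_of_add_eq_zero_left h2, neg_mul, mul_inv_cancel₀ hσ]
      rw [h3]
      apply Frame.Adm.ext
      · rw [Frame.Adm.smul_w, hw, smul_zero]
      · rw [Frame.Adm.smul_c, map_neg, map_one]
        ring
    · rw [hw, mul_inv_cancel₀ (mul_ne_zero hε hc), Frame.Adm.one_smul]
  rw [nZ, h1]

theorem nZ_conj (x : ι × Bool) {p : Fr.Adm} (hp : BrAdm Fr p) :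
    nZ Fr x p * Fr.Z x p * (nZ Fr x p)⁻¹ = Fr.Z (neg x) (Frame.Adm.smul (-(Fr.η x * (H.σ p.c)⁻¹)) p) := by
  obtain ⟨hc, hw⟩ := hp
  have hε := H.ε_ne
  have hη := Fr.η_ne x
  have hσ : H.σ p.c ≠ 0 := by simpa using hc
  rw [nZ_conj_Z Fr x p hc p]
  congr 1
  apply Frame.Adm.ext
  · rw [Frame.Adm.smul_w, Frame.Adm.smul_w, refl_w]
    rcases hw with hw | hw
    · rw [hw, H.zero_left, mul_zero, zero_smul, add_zero, smul_zero, smul_zero]
    · have hh : H.h p.w p.w = -(H.ε * p.c + H.σ p.c) := by rw [p.herm, _root_.neg_neg]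
      rw [hh, hw]
      match_scalars
      field_simp
      ring
  · rw [Frame.Adm.smul_c, Frame.Adm.smul_c, refl_c]
    simp only [map_neg, map_mul, map_inv₀, H.σσ, H.σε, inv_inv]
    field_simp

end FrameLevel

/-! ### Models -/

section Model

open Cfsg.Agent.Nodes.TypeC
open Cfsg.Agent.Nodes.WittRGD (rg_sr)

variable {F : Type*} [Field F] {V : Type*} [AddCommGroup V] [Module F V] {H : HForm F V} {n : ℕ}
  {Fr : Frame H (Fin n)} {K : Type*} [Group K] (M : Model Fr K)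

/-- **The nodes of a model of type `C`.** -/
theorem nodeBr_C {p : ℕ} (hA : AmbT Fr p M.I) {p0 : Fr.Adm} (hp0 : BrAdm Fr p0) :
    NodeBr (fun i => M.φ ⟨Nodes.WittRGD.nn Fr p0 i, nn_mem hA p0 i⟩) (WittModel.X M) := by
  intro i
  -- the element at the level of the frame
  obtain ⟨g, hg, hgX, hn, hl⟩ : ∃ (g : V ≃ₗ[F] V) (_ : g ∈ M.I) (_ : g ∈ WittRoot.rg Fr (sr i)),
      Nodes.WittRGD.nn Fr p0 i = g * (Nodes.WittRGD.nn Fr p0 i * g * (Nodes.WittRGD.nn Fr p0 i)⁻¹) * g ∧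
      ∃ v, ∀ a : F, g v ≠ a • v := by
    by_cases hi : (i : ℕ) + 1 < n
    · have hnx : nx i = (⟨i + 1, hi⟩, false) := by unfold nx; rw [dif_pos hi]
      have hne : ((i, true) : Fin n × Bool).1 ≠ (nx i).1 := by rw [hnx]; simp [Fin.ext_iff]
      have hnn : Nodes.WittRGD.nn Fr p0 i = nX Fr (i, true) (nx i) 1 := by unfold Nodes.WittRGD.nn; rw [if_pos hi]
      refine ⟨Fr.X (i, true) (nx i) 1, M.hX _ _ _, ?_, ?_, Fr.b (neg (nx i)), fun a ha => not_line_X Fr hne ha⟩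
      · rw [rg_sr, PG_ne Fr hne]
        exact ⟨1, rfl⟩
      · rw [hnn, frame_nX_conj Fr hne, nX]
    · have hnx : nx i = (i, true) := by unfold nx; rw [dif_neg hi]
      have hnn : Nodes.WittRGD.nn Fr p0 i = nZ Fr (i, true) p0 := by unfold Nodes.WittRGD.nn; rw [if_neg hi]
      refine ⟨Fr.Z (i, true) p0, M.hZ _ _, ?_, ?_, Fr.b (neg (i, true)), fun a ha => not_line_Z Fr hp0.1 ha⟩
      · rw [rg_sr, hnx, PG_self]
        exact ⟨p0, rfl⟩
      · rw [hnn, nZ_conj _ hp0, ← nZ_eq _ hp0]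
  obtain ⟨v, hv⟩ := hl
  refine ⟨M.φ ⟨g, hg⟩, WittModel.mem_X_of M hg hgX, ?_, ?_⟩
  · intro h1
    obtain ⟨a, ha⟩ := M.ker v ⟨g, hg⟩ h1
    exact hv a ha
  · show M.φ ⟨Nodes.WittRGD.nn Fr p0 i, nn_mem hA p0 i⟩ =
      M.φ ⟨g, hg⟩ * (M.φ ⟨Nodes.WittRGD.nn Fr p0 i, nn_mem hA p0 i⟩ * M.φ ⟨g, hg⟩ *
      (M.φ ⟨Nodes.WittRGD.nn Fr p0 i, nn_mem hA p0 i⟩)⁻¹) * M.φ ⟨g, hg⟩
    rw [← map_inv, ← map_mul, ← map_mul, ← map_mul, ← map_mul]
    congr 1
    apply Subtype.ext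
    exact hn

theorem hasBr_C {p : ℕ} [Fact p.Prime] (hA : AmbT Fr p M.I) [Finite V] [CharP F p] {p0 : Fr.Adm}
    (hp0 : BrAdm Fr p0) (hn : 0 < n) : HasBr p K :=
  ⟨n, CoxeterMatrix.B n, TypeC.A n, TypeC.isCartan n, _, _, _, finite_W (CoxeterMatrix.B n).toCoxeterSystem,
    rgdC_model M hA hp0.1 _, WittModel.G1_eq_top _ hn _, nodeBr_C M hA hp0⟩

end Model

/-! ### Unitary and symplectic groups -/

open Cfsg.Agent.Nodes.WittU Cfsg.Agent.Nodes.WittInst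

theorem hasBr_PSU {p : ℕ} [Fact p.Prime] {F : Type*} [Field F] [Fintype F] {q N : ℕ} (hF : Fintype.card F = q ^ 2)
    (hN : 3 ≤ N) [CharP F p] : HasBr p (PSU N F q) := by
  obtain ⟨m, hm⟩ : ∃ m, N = 2 * m ∨ N = 2 * m + 1 := ⟨N / 2, by omega⟩
  obtain ⟨W, -⟩ := exists_wframe hF hm
  obtain ⟨p0, hp0, hw⟩ := exists_adm hF W
  exact hasBr_C (KInstU.model hF hN W) (AmbT.of_amb (amb_U hF W) p) ⟨hp0, Or.inl hw⟩ (by omega)

theorem hasBr_PSp {p : ℕ} [Fact p.Prime] {F : Type*} [Field F] [Finite F] {m : ℕ} (hm : 1 ≤ m) [CharP F p] :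
    HasBr p (PSp m F) :=
  hasBr_C (KInstSp.model m F) (AmbT.of_amb amb_Sp p) (p0 := SpIdent.adm 1) ⟨one_ne_zero, Or.inl rfl⟩ hm

/-! ### Orthogonal groups -/

section Orthogonal

open QuadraticMap
open Cfsg.Agent.LieClassical Cfsg.Agent.LieClassical.OrthCore Cfsg.Agent.LieClassical.OrthTrans
open Cfsg.Agent.LieClassical.OrthSimple Cfsg.Agent.LieClassical.OrthFinite
open Cfsg.Agent.LieClassical.OrthForms Cfsg.Agent.TitsThree.SiegelGen
open Cfsg.Agent.TitsThree.WBridge Cfsg.Agent.TitsThree.KSideO Cfsg.Agent.TitsThree.StdData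

variable {F : Type*} [Field F] {m : ℕ}

theorem brAdm_O {ι : Type} [Fintype ι] [DecidableEq ι] {Q : QuadraticForm F (ι → F)} {n : ℕ} (W : WFrame (PO Q) n)
    {p0 : (toFrame W).Adm} (hp0 : p0.c ≠ 0) : BrAdm (toFrame W) p0 :=
  ⟨hp0, Or.inr (by
    show p0.c = 1 * p0.c
    rw [one_mul])⟩

theorem hasBr_PO_odd {p : ℕ} [Fact p.Prime] [Finite F] (h2 : (2 : F) ≠ 0) (hm : 2 ≤ m) [CharP F p] :
    HasBr p (Cfsg.POmega F (Cfsg.quadFormOdd m F)) := by
  rw [← coe_oddForm]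
  have hG : Good (oddForm m F) := by
    apply good_of_finite (nondeg_oddForm m F h2)
    rw [Module.finrank_fintype_fun_eq_card, Fintype.card_sum, Fintype.card_sum, Fintype.card_fin,
      Fintype.card_unit]
    omega
  have hp : ((embOdd m F).ngt ⟨1, -1 ^ 2, rfl⟩).c ≠ 0 := by
    change (1 : F)⁻¹ * (-1 ^ 2) ≠ 0
    simp
  exact hasBr_C (model (wodd m F) hG ⟨_, hp⟩) (AmbT.of_amb (amb_O_of_two _ h2) p) (brAdm_O _ hp) (by omega)

theorem hasBr_PO_minus {p : ℕ} [Fact p.Prime] [Finite F] [CharP F p] (a b : F)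
    (hab : ∀ z₁ z₂ : F, z₁ ^ 2 + a * z₁ * z₂ + b * z₂ ^ 2 = 0 → z₁ = 0 ∧ z₂ = 0)
    (hm : 2 ≤ m) : HasBr p (Cfsg.POmega F (Cfsg.quadFormMinus m F a b)) := by
  rw [← coe_minusForm]
  have hG : Good (minusForm m F a b) := by
    apply good_of_finite (nondeg_minusForm m F a b hab)
    rw [Module.finrank_fintype_fun_eq_card, Fintype.card_sum, Fintype.card_sum, Fintype.card_fin,
      Fintype.card_fin]
    omega
  have hp : ((embMinus m F a b hab).ngt ⟨(1, 0), -nf a b (1, 0), rfl⟩).c ≠ 0 := by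
    change (1 : F)⁻¹ * (-nf a b (1, 0)) ≠ 0
    simp [nf]
  have hA : AmbT (toFrame (wminus m F a b hab)) p (E (minusForm m F a b)) := by
    by_cases h2 : (2 : F) = 0
    · have hp2 : p = 2 := by
        have h3 : CharP F 2 := CharTwo.of_one_ne_zero_of_two_eq_zero one_ne_zero h2
        exact CharP.eq F ‹CharP F p› h3
      subst hp2
      exact ambT_O _ fun g hg hg2 hb => fixp_minus a b hab h2 hm hG hg hg2 hb
    · exact AmbT.of_amb (amb_O_of_two _ h2) p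
  exact hasBr_C (model (wminus m F a b hab) hG ⟨_, hp⟩) hA (brAdm_O _ hp) (by omega)

end Orthogonal

section Plus

open Cfsg.Agent.TitsThree.SiegelGen
open Cfsg.Agent.LieClassical Cfsg.Agent.LieClassical.OrthCore Cfsg.Agent.LieClassical.OrthTrans
open Cfsg.Agent.LieClassical.OrthSimple Cfsg.Agent.LieClassical.OrthFinite
open Cfsg.Agent.LieClassical.OrthForms
open Cfsg.Agent.TitsThree.WBridge Cfsg.Agent.TitsThree.KSideO Cfsg.Agent.TitsThree.StdData

variable {F : Type*} [Field F] {m : ℕ}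

variable {ι : Type} [Fintype ι] [DecidableEq ι] {Q : QuadraticForm F (ι → F)} {n : ℕ}

theorem nodeBr_D (W : WFrame (PO Q) (n + 2)) (hG : Good Q) (hA : Amb (toFrame W) (E Q)) :
    NodeBr (fun i => toPOmega hG ⟨WittRGDD.nn (toFrame W) i, WittRGDD.nn_mem hA i⟩) (XD W (toPOmega hG)) := by
  intro i
  have hne : ((i, true) : Fin (n + 2) × Bool).1 ≠ (TypeD.nx i).1 := TypeD.ok_nx i
  have hg : (toFrame W).X (i, true) (TypeD.nx i) 1 ∈ E Q := X_mem W _ _ _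
  have hnn : WittRGDD.nn (toFrame W) i = nX (toFrame W) (i, true) (TypeD.nx i) 1 := rfl
  refine ⟨toPOmega hG ⟨(toFrame W).X (i, true) (TypeD.nx i) 1, hg⟩, ?_, ?_, ?_⟩
  · refine Subgroup.mem_map_of_mem _ (Subgroup.mem_subgroupOf.2 ?_)
    show (toFrame W).X (i, true) (TypeD.nx i) 1 ∈ WittRGDD.rg (toFrame W) (sr i)
    rw [WittRGDD.rg_sr]
    exact ⟨1, rfl⟩
  · intro h1
    have h3 : (⟨(toFrame W).X (i, true) (TypeD.nx i) 1, hg⟩ : E Q) ∈ Subgroup.center (E Q) :=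
      ker_toPOmega hG h1
    rw [Subgroup.mem_center_iff] at h3
    have h4 := congrArg Subtype.val (h3 ⟨WittRGDD.nn (toFrame W) i, WittRGDD.nn_mem hA i⟩)
    have h5 : nX (toFrame W) (i, true) (TypeD.nx i) 1 * (toFrame W).X (i, true) (TypeD.nx i) 1 =
      (toFrame W).X (i, true) (TypeD.nx i) 1 * nX (toFrame W) (i, true) (TypeD.nx i) 1 := h4
    have h6 := frame_nX_conj (toFrame W) hne
    rw [h5, mul_inv_cancel_right] at h6
    exact frame_X_ne (toFrame W) hne _ h6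
  · show toPOmega hG ⟨WittRGDD.nn (toFrame W) i, WittRGDD.nn_mem hA i⟩ = toPOmega hG ⟨_, hg⟩ *
      (toPOmega hG ⟨WittRGDD.nn (toFrame W) i, WittRGDD.nn_mem hA i⟩ * toPOmega hG ⟨_, hg⟩ *
      (toPOmega hG ⟨WittRGDD.nn (toFrame W) i, WittRGDD.nn_mem hA i⟩)⁻¹) * toPOmega hG ⟨_, hg⟩
    rw [← map_inv, ← map_mul, ← map_mul, ← map_mul, ← map_mul]
    congr 1
    apply Subtype.ext
    show WittRGDD.nn (toFrame W) i = _ * (WittRGDD.nn (toFrame W) i * _ * (WittRGDD.nn (toFrame W) i)⁻¹) * _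
    rw [hnn, frame_nX_conj (toFrame W) hne, nX]

theorem hasBr_PO_plus {p : ℕ} [Fact p.Prime] {F : Type*} [Field F] [Finite F] [CharP F p] (n : ℕ) :
    HasBr p (Cfsg.POmega F (Cfsg.quadFormPlus (n + 3) F)) := by
  rw [← coe_plusForm]
  have hG : Good (plusForm (n + 3) F) := by
    apply good_of_finite (nondeg_plusForm (n + 3) F)
    rw [Module.finrank_fintype_fun_eq_card, Fintype.card_sum, Fintype.card_fin]
    omega
  exact ⟨n + 3, TypeD.M (n + 1), TypeD.A (n + 1), TypeD.isCartan (n + 1), _, _, _,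
    TypeD.finite_W (TypeD.M (n + 1)).toCoxeterSystem,
    rgdD_model (wplus (n + 3) F) hG (amb_plus _) (adm_plus _) _,
    G1D_eq_top (wplus (n + 3) F) (toPOmega hG) (toPOmega_surjective hG) (adm_plus _) _,
    nodeBr_D (wplus (n + 3) F) hG (amb_plus _)⟩

end Plus

end Cfsg.Agent.H565.Br
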