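import Cfsg.Agent.H565.TwF4Hall
import Cfsg.Agent.H794.TwoClosed

/-!
# Hall subgroups of order prime to three in the groups of Lie type in characteristic `p ∈ π`

* `hallLe_of_lie` : all groups of Lie type in characteristic `p ≠ 3`: a Hall `π`-subgroup, `3 ∉ π`, containing a Sylow
  `p`-subgroup `S`, is `G` or normalises `S`;
* `conj_of_lie_three` : `p ∈ π`, `3 ∉ π`: the Hall `π`-subgroups are conjugate; `conj_of_tits_three` : the Tits group.
-/

set_option autoImplicit false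

namespace Cfsg.Agent.H565.Br

open Subgroup Cfsg Cfsg.Lie Cfsg.Agent.H565.OddBorel
open scoped Pointwise

theorem hallLe_of_lie {p : ℕ} [Fact p.Prime] (hp3 : p ≠ 3) {G : Type*} [Group G] [Finite G]
    (hG : IsLieTypeChar p G) : HallLe p G := by
  rcases hasBr_of_lie hG with h | ⟨rfl, h⟩ | ⟨rfl, h⟩ | ⟨h, -⟩
  · exact (threeLe_of_hasBr h).hallLe
  · exact (threeLe_of_ti (H794.TwoClosed.ti_suzuki h) (H567.DichLie.dich_of_lie hG)).hallLe
  · exact F4.hallLe_2F4 h
  · exact absurd h hp3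

theorem borelSolv_of_lie_all {p : ℕ} [Fact p.Prime] {G : Type*} [Group G] [Finite G] (hG : IsLieTypeChar p G) :
    BorelSolv p G := by
  by_cases hp2 : p = 2
  · subst hp2
    exact borelSolv_two G
  · exact borelSolv_of_lie hp2 hG

/-- **Hall `π`-subgroups, `3 ∉ π`, `p ∈ π`, of the groups of Lie type in characteristic `p` are conjugate.** -/
theorem conj_of_lie_three {p : ℕ} (hp : p.Prime) {G : Type*} [Group G] [Finite G] (hG : IsLieTypeChar p G)
    {π : Set ℕ} (h3 : 3 ∉ π) (hpπ : p ∈ π) {H K : Subgroup G} (hH : Cfsg.IsPiHall π H) (hK : Cfsg.IsPiHall π K) :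
    ∃ g : G, K = MulAut.conj g • H := by
  have : Fact p.Prime := ⟨hp⟩
  have hp3 : p ≠ 3 := by
    rintro rfl
    exact h3 hpπ
  exact conj_of_hallLe (hallLe_of_lie hp3 hG) (borelSolv_of_lie_all hG) h3 hpπ hH hK

/-- **Hall `π`-subgroups, `3 ∉ π`, `2 ∈ π`, of the Tits group are conjugate.** -/
theorem conj_of_tits_three {G : Type*} [Group G] [Finite G] (hG : IsoTits G)
    {π : Set ℕ} (h3 : 3 ∉ π) (h2π : 2 ∈ π) {H K : Subgroup G} (hH : Cfsg.IsPiHall π H) (hK : Cfsg.IsPiHall π K) :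
    ∃ g : G, K = MulAut.conj g • H := by
  have : Fact (Nat.Prime 2) := ⟨Nat.prime_two⟩
  exact conj_of_hallLe (F4.hallLe_tits hG) (borelSolv_two G) h3 h2π hH hK

end Cfsg.Agent.H565.Br
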