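import Cfsg.Agent.H565.ConjThree
import Cfsg.Agent.H553.GoodLems
import Cfsg.Agent.H979.LieSplit
import Cfsg.Agent.H580.LieBad

/-!
# The rows `p ∈ π`, `3 ∉ π` of S4312

`good_of_lie_mem` : groups of Lie type in characteristic `p ∈ π`; `good_of_tits` : the Tits group, `2 ∈ π`.
-/

set_option autoImplicit false

namespace Cfsg.Agent.H565.Br

open Subgroup Cfsg Cfsg.Lie Cfsg.Agent.H565.OddBorel Cfsg.Agent.H553.ExtRed Cfsg.Agent.H988.CPi
open scoped Pointwise

theorem good_of_hallLe {p : ℕ} [hp : Fact p.Prime] {S : Type*} [Group S] [Finite S] [IsSimpleGroup S]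
    (hna : ¬ IsMulCommutative S) (hd : p ∣ Nat.card S) (h : HallLe p S) {π : Set ℕ} (h3 : 3 ∉ π) (hpπ : p ∈ π)
    (hE : IsEPiGroup π S) : PiN π (Nat.card S) ∨ Good π S := by
  obtain ⟨H, hH⟩ := hE
  obtain ⟨R⟩ : Nonempty (Sylow p S) := inferInstance
  obtain ⟨a, ha⟩ := exists_conj_le hpπ hH R
  have hH' := H164.hall_map_conj hH a
  rcases h π R _ hH' h3 ha with h1 | h1
  · left
    intro r hr hrd
    refine hH'.1 r hr ?_
    rw [h1, card_top]
    exact hrd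
  · right
    exact good_of_sylow hna R hd _ hH' h1

/-- **S4312, groups of Lie type in characteristic `p ∈ π`** -/
theorem good_of_lie_mem {p : ℕ} (hp : p.Prime) {S : Type*} [Group S] [Finite S] [IsSimpleGroup S]
    (hna : ¬ IsMulCommutative S) (hG : IsLieTypeChar p S) {π : Set ℕ} (h3 : 3 ∉ π) (hpπ : p ∈ π)
    (hE : IsEPiGroup π S) : PiN π (Nat.card S) ∨ Good π S := by
  have : Fact p.Prime := ⟨hp⟩
  have hp3 : p ≠ 3 := by
    rintro rfl
    exact h3 hpπ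
  obtain ⟨P, U, ⟨s, hs⟩, hU⟩ := H979.LieSplit.hasSplit_of_isLieTypeChar hp hG
  exact good_of_hallLe hna (H580.LieBad.dvd_card hU hs) (hallLe_of_lie hp3 hG) h3 hpπ hE

/-- **S4312, the Tits group, `2 ∈ π`** -/
theorem good_of_tits {S : Type*} [Group S] [Finite S] [IsSimpleGroup S]
    (hna : ¬ IsMulCommutative S) (hG : IsoTits S) {π : Set ℕ} (h3 : 3 ∉ π) (h2π : 2 ∈ π)
    (hE : IsEPiGroup π S) : PiN π (Nat.card S) ∨ Good π S := by
  have : Fact (Nat.Prime 2) := ⟨Nat.prime_two⟩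
  refine good_of_hallLe hna ?_ (F4.hallLe_tits hG) h3 h2π hE
  obtain ⟨e⟩ := hG
  rw [Nat.card_congr e.toEquiv, Cfsg.Agent.S1074.result.2.2.2]
  norm_num

end Cfsg.Agent.H565.Br
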