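import Cfsg.Agent.H188.Tab
import Cfsg.Agent.KFacts.FiTTh.BasFi

/-!
# Generation of `M23` by triples of prime orders: the positive part (helper565)

`Gen p q r`: there are `x y z` of orders `p q r` with `x * y * z = 1` and `⟨x, y⟩ = M23`.
The elements are given by packed tables; two words in `x`, `y` give the fixed generators
`TA` (the translation) and `TB` (an involution), words in which are the seven involutions of
`KFacts.FiTTh.BasTau.le_of_tau`.
-/

set_option autoImplicit false
set_option maxRecDepth 100000

namespace Cfsg.Agent.H565.MGen

open Cfsg Cfsg.Agent.SporadicA.GolayBase Cfsg.Agent.SporadicA.GolayPerm Cfsg.Agent.H188.Tab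
open Cfsg.Agent.KFacts.FiTTh

/-- Powers of a table. -/
def pwr (P : ℕ) : ℕ → ℕ
  | 0 => pone
  | n + 1 => pcomp (pwr P n) P

theorem isT_pow {g : Spor.M23} {P : ℕ} (h : IsT g P) : ∀ n, IsT (g ^ n) (pwr P n)
  | 0 => by
    rw [pow_zero]
    exact isT_one
  | n + 1 => by
    rw [pow_succ]
    exact (isT_pow h n).mul h

/-- The table of a word: `n` letters, the binary digits of `w`. -/
def ev (X Y : ℕ) : ℕ → ℕ → ℕ
  | 0, _ => pone
  | n + 1, w => pcomp (cond (Nat.beq (w % 2) 1) X Y) (ev X Y n (w / 2))

/-- The value of a word. -/
def wd {G : Type*} [Group G] (x y : G) : ℕ → ℕ → G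
  | 0, _ => 1
  | n + 1, w => (cond (Nat.beq (w % 2) 1) x y) * wd x y n (w / 2)

theorem isT_wd {x y : Spor.M23} {X Y : ℕ} (hx : IsT x X) (hy : IsT y Y) :
    ∀ n w, IsT (wd x y n w) (ev X Y n w)
  | 0, _ => isT_one
  | n + 1, w => by
    refine IsT.mul ?_ (isT_wd hx hy n (w / 2))
    cases Nat.beq (w % 2) 1
    · exact hy
    · exact hx

theorem wd_mem {G : Type*} [Group G] {x y : G} {H : Subgroup G} (hx : x ∈ H) (hy : y ∈ H) :
    ∀ n w, wd x y n w ∈ H
  | 0, _ => one_mem H
  | n + 1, w => by
    refine mul_mem ?_ (wd_mem hx hy n (w / 2))
    cases Nat.beq (w % 2) 1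
    · exact hy
    · exact hx

/-- Whether a table moves a point. -/
def mvs (P : ℕ) : Bool := (List.range 24).any fun i => !(Nat.beq (papp P i) i)

theorem ne_one_of_mvs {g : Spor.M23} {P : ℕ} (h : IsT g P) (hm : mvs P = true) : g ≠ 1 := by
  rintro rfl
  unfold mvs at hm
  rw [List.any_eq_true] at hm
  obtain ⟨i, hi, h1⟩ := hm
  rw [isPone h i (List.mem_range.1 hi), Nat.beq_refl] at h1
  exact absurd h1 (by decide)

theorem order_of_chk {g : Spor.M23} {P p : ℕ} (hp : p.Prime) (h : IsT g P)
    (h1 : pwr P p = pone) (hm : mvs P = true) : orderOf g = p := by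
  have := Fact.mk hp
  refine orderOf_eq_prime ?_ (ne_one_of_mvs h hm)
  have h2 := isT_pow h p
  rw [h1] at h2
  exact h2.eq isT_one

/-- The table of the translation. -/
def TA : ℕ := 956302485175575353788796878166559809
/-- The table of the involution. -/
def TB : ℕ := 976907791134299798555324425644902401

theorem okA : okT TA = true := by decide +kernel
theorem okB : okT TB = true := by decide +kernel

/-- The translation. -/
noncomputable def ga : Spor.M23 := mkT TA okA
/-- The involution. -/
noncomputable def gb : Spor.M23 := mkT TB okB

/-- The words giving the seven involutions. -/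
def wn : ℕ → ℕ
  | 0 => 30
  | 1 => 29
  | 2 => 31
  | 3 => 31
  | 4 => 1
  | 5 => 30
  | _ => 31
@[inherit_doc wn] def ww : ℕ → ℕ
  | 0 => 492787551
  | 1 => 258667871
  | 2 => 771743706
  | 3 => 783264687
  | 4 => 0
  | 5 => 526237371
  | _ => 1541320174

theorem chk_tau : ∀ k < 7, ∀ i < 24, papp (ev TA TB (wn k) (ww k)) i = (BasTau.tab k).getD i 0 := by
  decide +kernel

theorem idx_idx (p : GolayPt) : Cfsg.Agent.SporadicA.GolayWalk.idx p = idx p := by
  cases p <;> rfl

theorem tau_eq {k : ℕ} (hk : k < 7) :
    BasTau.tau k = ((wd ga gb (wn k) (ww k) : Spor.M23) : Equiv.Perm GolayPt) := by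
  apply Equiv.ext
  intro p
  apply idx_injective
  have h1 : IsT (wd ga gb (wn k) (ww k)) (ev TA TB (wn k) (ww k)) :=
    isT_wd (isT_mkT TA okA) (isT_mkT TB okB) _ _
  rw [h1 p, chk_tau k hk _ (idx_lt p),
    ← idx_idx, BasTau.idx_tau k hk p, idx_idx]

/-- **The two elements generate `M23`.** -/
theorem closure_ab : Subgroup.closure ({ga, gb} : Set Spor.M23) = ⊤ := by
  have h : Spor.M23 ≤ (Subgroup.closure ({ga, gb} : Set Spor.M23)).map Spor.M23.subtype := by
    apply BasTau.le_of_tau
    intro k hk
    rw [tau_eq hk]
    exact Subgroup.mem_map_of_mem _ (wd_mem (Subgroup.subset_closure (by simp))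
      (Subgroup.subset_closure (by simp)) _ _)
  rw [eq_top_iff]
  intro g _
  obtain ⟨g', hg', he⟩ := h g.2
  have h2 : g' = g := Subtype.ext he
  rw [← h2]
  exact hg'

/-- The existence of a generating triple. -/
def Gen (p q r : ℕ) : Prop := ∃ x y z : Spor.M23, orderOf x = p ∧ orderOf y = q ∧ orderOf z = r ∧
  x * y * z = 1 ∧ Subgroup.closure {x, y} = ⊤

/-- The check. -/
def chk (p q r X Y na wa nb wb : ℕ) : Bool :=
  okT X && (okT Y && (Nat.beq (pwr X p) pone && (mvs X && (Nat.beq (pwr Y q) pone && (mvs Y &&
    (Nat.beq (pwr (pcomp X Y) r) pone && (mvs (pcomp X Y) && (Nat.beq (ev X Y na wa) TA &&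
    Nat.beq (ev X Y nb wb) TB))))))))

theorem gen_of_chk {p q r X Y na wa nb wb : ℕ} (hp : p.Prime) (hq : q.Prime) (hr : r.Prime)
    (h : chk p q r X Y na wa nb wb = true) : Gen p q r := by
  unfold chk at h
  simp only [Bool.and_eq_true] at h
  obtain ⟨hX, hY, h1, h2, h3, h4, h5, h6, h7, h8⟩ := h
  have tx := isT_mkT X hX
  have ty := isT_mkT Y hY
  have txy := tx.mul ty
  refine ⟨mkT X hX, mkT Y hY, (mkT X hX * mkT Y hY)⁻¹,
    order_of_chk hp tx (Nat.eq_of_beq_eq_true h1) h2,
    order_of_chk hq ty (Nat.eq_of_beq_eq_true h3) h4, ?_, mul_inv_cancel _, ?_⟩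
  · rw [orderOf_inv]
    exact order_of_chk hr txy (Nat.eq_of_beq_eq_true h5) h6
  · rw [eq_top_iff, ← closure_ab, Subgroup.closure_le]
    have mx : mkT X hX ∈ Subgroup.closure ({mkT X hX, mkT Y hY} : Set Spor.M23) :=
      Subgroup.subset_closure (by simp)
    have my : mkT Y hY ∈ Subgroup.closure ({mkT X hX, mkT Y hY} : Set Spor.M23) :=
      Subgroup.subset_closure (by simp)
    have ha : ga = wd (mkT X hX) (mkT Y hY) na wa := by
      have h9 := isT_wd tx ty na wa
      rw [Nat.eq_of_beq_eq_true h7] at h9
      exact (isT_mkT TA okA).eq h9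
    have hb : gb = wd (mkT X hX) (mkT Y hY) nb wb := by
      have h9 := isT_wd tx ty nb wb
      rw [Nat.eq_of_beq_eq_true h8] at h9
      exact (isT_mkT TB okB).eq h9
    rintro g (rfl | hg)
    · rw [ha]
      exact wd_mem mx my _ _
    · rw [Set.mem_singleton_iff] at hg
      rw [hg, hb]
      exact wd_mem mx my _ _

theorem gen_2_5_11 : Gen 2 5 11 :=
  gen_of_chk (X := 977839867786251717525204161457686560)
    (Y := 963901531790278627413710022495064545) (na := 36) (wa := 45669950538)
    (nb := 33) (wb := 2286503236) (by norm_num) (by norm_num) (by norm_num) (by decide +kernel)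

theorem gen_2_5_23 : Gen 2 5 23 :=
  gen_of_chk (X := 976489780099076371613567291816446062)
    (Y := 972552284049948740078422504274742928) (na := 33) (wa := 2324320937)
    (nb := 38) (wb := 11310613541) (by norm_num) (by norm_num) (by norm_num) (by decide +kernel)

theorem gen_2_7_7 : Gen 2 7 7 :=
  gen_of_chk (X := 980924120422969460693890133656717728)
    (Y := 980880268314627001736298072256286917) (na := 31) (wa := 542278313)
    (nb := 33) (wb := 1217006090) (by norm_num) (by norm_num) (by norm_num) (by decide +kernel)

theorem gen_2_7_11 : Gen 2 7 11 :=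
  gen_of_chk (X := 983556928590877205130622968142340266)
    (Y := 957143016330930085802002765955146240) (na := 36) (wa := 621942057)
    (nb := 34) (wb := 9934342280) (by norm_num) (by norm_num) (by norm_num) (by decide +kernel)

theorem gen_2_7_23 : Gen 2 7 23 :=
  gen_of_chk (X := 984273154656616016941563778037811360)
    (Y := 971871352162406952251105981957046581) (na := 29) (wa := 339782312)
    (nb := 35) (wb := 1384453205) (by norm_num) (by norm_num) (by norm_num) (by decide +kernel)

theorem gen_2_11_11 : Gen 2 11 11 :=
  gen_of_chk (X := 984802269651932283441969023878793459)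
    (Y := 965780471603309153578851081966999059) (na := 32) (wa := 2460614820)
    (nb := 28) (wb := 43286821) (by norm_num) (by norm_num) (by norm_num) (by decide +kernel)

theorem gen_2_11_23 : Gen 2 11 23 :=
  gen_of_chk (X := 976907791134299798555324425644902401)
    (Y := 965380721740738720680636834286404777) (na := 31) (wa := 1379967634)
    (nb := 1) (wb := 1) (by norm_num) (by norm_num) (by norm_num) (by decide +kernel)

theorem gen_2_23_23 : Gen 2 23 23 :=
  gen_of_chk (X := 965082184904924044516567052007901227)
    (Y := 961485819427732241184994032913554595) (na := 32) (wa := 2284060994)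
    (nb := 26) (wb := 2757956) (by norm_num) (by norm_num) (by norm_num) (by decide +kernel)

theorem gen_3_3_11 : Gen 3 3 11 :=
  gen_of_chk (X := 963805672821363295050528900347442208)
    (Y := 984516564640786671624432792446929409) (na := 18) (wa := 218777)
    (nb := 32) (wb := 1523232173) (by norm_num) (by norm_num) (by norm_num) (by decide +kernel)

theorem gen_3_3_23 : Gen 3 3 23 :=
  gen_of_chk (X := 958596340979559411423914652450098829)
    (Y := 965099963049362958473518044713964960) (na := 31) (wa := 1705321690)
    (nb := 26) (wb := 46812333) (by norm_num) (by norm_num) (by norm_num) (by decide +kernel)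

theorem gen_3_5_5 : Gen 3 5 5 :=
  gen_of_chk (X := 971708183635593224330302886453614852)
    (Y := 968941622667946167575360515091185703) (na := 27) (wa := 110810321)
    (nb := 22) (wb := 3301956) (by norm_num) (by norm_num) (by norm_num) (by decide +kernel)

theorem gen_3_5_7 : Gen 3 5 7 :=
  gen_of_chk (X := 955876117537736647997891753195717313)
    (Y := 973096940417518713326492031576917216) (na := 25) (wa := 1321357)
    (nb := 27) (wb := 106276187) (by norm_num) (by norm_num) (by norm_num) (by decide +kernel)

theorem gen_3_5_11 : Gen 3 5 11 :=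
  gen_of_chk (X := 984411209700613962624819567946630607)
    (Y := 979138552969359287190544413906832421) (na := 26) (wa := 53563689)
    (nb := 26) (wb := 44391236) (by norm_num) (by norm_num) (by norm_num) (by decide +kernel)

theorem gen_3_5_23 : Gen 3 5 23 :=
  gen_of_chk (X := 981963486756917780667973184245537834)
    (Y := 959464558634306779574230679730958759) (na := 25) (wa := 4547153)
    (nb := 27) (wb := 101934411) (by norm_num) (by norm_num) (by norm_num) (by decide +kernel)

theorem gen_3_7_7 : Gen 3 7 7 :=
  gen_of_chk (X := 967883598383256399811695528439711787)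
    (Y := 956199238460217613815333620122029491) (na := 26) (wa := 6395419)
    (nb := 24) (wb := 8938565) (by norm_num) (by norm_num) (by norm_num) (by decide +kernel)

theorem gen_3_7_11 : Gen 3 7 11 :=
  gen_of_chk (X := 984411209700613962624819567946630607)
    (Y := 976941997210606600240788929223374214) (na := 25) (wa := 27706764)
    (nb := 26) (wb := 40479526) (by norm_num) (by norm_num) (by norm_num) (by decide +kernel)

theorem gen_3_7_23 : Gen 3 7 23 :=
  gen_of_chk (X := 979666079874750069567314504615822885)
    (Y := 975734282609829358864814550030725379) (na := 26) (wa := 43036012)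
    (nb := 27) (wb := 40653673) (by norm_num) (by norm_num) (by norm_num) (by decide +kernel)

theorem gen_3_11_11 : Gen 3 11 11 :=
  gen_of_chk (X := 980923584649899032799321437164908992)
    (Y := 961488191231054429910989239208161893) (na := 24) (wa := 1772936)
    (nb := 25) (wb := 11980184) (by norm_num) (by norm_num) (by norm_num) (by decide +kernel)

theorem gen_3_11_23 : Gen 3 11 23 :=
  gen_of_chk (X := 958596340979559411423914652450098829)
    (Y := 975750283763166045284876594286440052) (na := 22) (wa := 1619099)
    (nb := 24) (wb := 532749) (by norm_num) (by norm_num) (by norm_num) (by decide +kernel)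

theorem gen_3_23_23 : Gen 3 23 23 :=
  gen_of_chk (X := 969224879026834745770803748937990659)
    (Y := 980455817063118624369208845531666054) (na := 23) (wa := 3222221)
    (nb := 23) (wb := 857507) (by norm_num) (by norm_num) (by norm_num) (by decide +kernel)

theorem gen_5_5_5 : Gen 5 5 5 :=
  gen_of_chk (X := 959928480628709874683036305126047086)
    (Y := 976864517500199843237673965160368749) (na := 25) (wa := 8706972)
    (nb := 25) (wb := 25671052) (by norm_num) (by norm_num) (by norm_num) (by decide +kernel)

theorem gen_5_5_7 : Gen 5 5 7 :=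
  gen_of_chk (X := 970374143571959475183392934867342625)
    (Y := 973662822067867694722960702553107744) (na := 21) (wa := 80467)
    (nb := 25) (wb := 14019055) (by norm_num) (by norm_num) (by norm_num) (by decide +kernel)

theorem gen_5_5_11 : Gen 5 5 11 :=
  gen_of_chk (X := 965339190864223062407568689875667139)
    (Y := 963237740408165854873934956485512686) (na := 21) (wa := 883368)
    (nb := 22) (wb := 2331895) (by norm_num) (by norm_num) (by norm_num) (by decide +kernel)

theorem gen_5_5_23 : Gen 5 5 23 :=
  gen_of_chk (X := 970374143571959475183392934867342625)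
    (Y := 984683464819450387600048834370129536) (na := 24) (wa := 7113864)
    (nb := 24) (wb := 1919607) (by norm_num) (by norm_num) (by norm_num) (by decide +kernel)

theorem gen_5_7_7 : Gen 5 7 7 :=
  gen_of_chk (X := 970514808873802756503552411362741966)
    (Y := 974010099068630943226570811890016291) (na := 24) (wa := 12324506)
    (nb := 22) (wb := 961805) (by norm_num) (by norm_num) (by norm_num) (by decide +kernel)

theorem gen_5_7_11 : Gen 5 7 11 :=
  gen_of_chk (X := 979205837860186836958784794068980771)
    (Y := 980941282400574368949913624955202080) (na := 22) (wa := 210502)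
    (nb := 20) (wb := 100450) (by norm_num) (by norm_num) (by norm_num) (by decide +kernel)

theorem gen_5_7_23 : Gen 5 7 23 :=
  gen_of_chk (X := 984162611484649169343696305626127377)
    (Y := 956830694285033422289590920706143403) (na := 23) (wa := 6496623)
    (nb := 22) (wb := 1436258) (by norm_num) (by norm_num) (by norm_num) (by decide +kernel)

theorem gen_5_11_11 : Gen 5 11 11 :=
  gen_of_chk (X := 976441272769708041475280534435444398)
    (Y := 981675217219211389337561853274948747) (na := 21) (wa := 681659)
    (nb := 19) (wb := 83091) (by norm_num) (by norm_num) (by norm_num) (by decide +kernel)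

theorem gen_5_11_23 : Gen 5 11 23 :=
  gen_of_chk (X := 957600557716660194828370546086425187)
    (Y := 978846835993124839052440480835550417) (na := 21) (wa := 119628)
    (nb := 25) (wb := 20613219) (by norm_num) (by norm_num) (by norm_num) (by decide +kernel)

theorem gen_5_23_23 : Gen 5 23 23 :=
  gen_of_chk (X := 969079099015885520232495609882516488)
    (Y := 973174203536579799282546091006502352) (na := 23) (wa := 3610970)
    (nb := 24) (wb := 5066939) (by norm_num) (by norm_num) (by norm_num) (by decide +kernel)

theorem gen_7_7_7 : Gen 7 7 7 :=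
  gen_of_chk (X := 961078991030190516889848136898619919)
    (Y := 964897098635868066101764870111365699) (na := 23) (wa := 2243783)
    (nb := 21) (wb := 213222) (by norm_num) (by norm_num) (by norm_num) (by decide +kernel)

theorem gen_7_7_11 : Gen 7 7 11 :=
  gen_of_chk (X := 961320745025915078816006162642111949)
    (Y := 955997851595561523629821535613257124) (na := 20) (wa := 776077)
    (nb := 22) (wb := 3197491) (by norm_num) (by norm_num) (by norm_num) (by decide +kernel)

theorem gen_7_7_23 : Gen 7 7 23 :=
  gen_of_chk (X := 971858619753353660220030903843654708)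
    (Y := 967555210418328312719683571222656195) (na := 22) (wa := 826007)
    (nb := 20) (wb := 142300) (by norm_num) (by norm_num) (by norm_num) (by decide +kernel)

theorem gen_7_11_11 : Gen 7 11 11 :=
  gen_of_chk (X := 971858619753353660220030903843654708)
    (Y := 967769603723646980583877115718831617) (na := 22) (wa := 3350657)
    (nb := 23) (wb := 3029692) (by norm_num) (by norm_num) (by norm_num) (by decide +kernel)

theorem gen_7_11_23 : Gen 7 11 23 :=
  gen_of_chk (X := 971585041933948683580317384143678564)
    (Y := 962246289583438777822181018580961284) (na := 25) (wa := 32550613)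
    (nb := 19) (wb := 360699) (by norm_num) (by norm_num) (by norm_num) (by decide +kernel)

theorem gen_7_23_23 : Gen 7 23 23 :=
  gen_of_chk (X := 974902765793856936856166220522817700)
    (Y := 967067971830964635607681316677649674) (na := 21) (wa := 88454)
    (nb := 20) (wb := 943451) (by norm_num) (by norm_num) (by norm_num) (by decide +kernel)

theorem gen_11_11_11 : Gen 11 11 11 :=
  gen_of_chk (X := 965199888098331189378702788777810543)
    (Y := 975550952387606863682817093344267981) (na := 23) (wa := 2080800)
    (nb := 10) (wb := 891) (by norm_num) (by norm_num) (by norm_num) (by decide +kernel)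

theorem gen_11_11_23 : Gen 11 11 23 :=
  gen_of_chk (X := 957596637473561597446587981301519444)
    (Y := 976296804415077693020225401805686376) (na := 24) (wa := 15886960)
    (nb := 23) (wb := 4933515) (by norm_num) (by norm_num) (by norm_num) (by decide +kernel)

theorem gen_11_23_23 : Gen 11 23 23 :=
  gen_of_chk (X := 957596637473561597446587981301519444)
    (Y := 970355330125817854832412258713260176) (na := 14) (wa := 9333)
    (nb := 23) (wb := 4933444) (by norm_num) (by norm_num) (by norm_num) (by decide +kernel)

theorem gen_23_23_23 : Gen 23 23 23 :=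
  gen_of_chk (X := 983351680588263886049911100740669804)
    (Y := 970233194059270683954610478196959948) (na := 24) (wa := 8442726)
    (nb := 23) (wb := 4262989) (by norm_num) (by norm_num) (by norm_num) (by decide +kernel)

end Cfsg.Agent.H565.MGen
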