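import Cfsg.Agent.H565.BrExc
import Cfsg.Agent.H565.BrWitt
import Cfsg.Agent.S0205

/-!
# Overgroups of order prime to three of the Sylow `p`-subgroups of a group of Lie type in characteristic `p`

* `ThreeLe p G` : every subgroup of order prime to three containing a Sylow `p`-subgroup `S` is `G` or normalises `S`;
  `threeLe_of_lie` : all groups of Lie type in characteristic `p ≠ 3` except `²F₄(q)`;
* `HallLe p G` : the same for Hall `π`-subgroups, `3 ∉ π`;
* `conj_of_hallLe` : `HallLe p G`, `BorelSolv p G`, `3 ∉ π`, `p ∈ π`: Hall `π`-subgroups are conjugate;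
* `borelSolv_two` : `BorelSolv 2 G` for every finite group.
-/

set_option autoImplicit false
set_option linter.unusedSectionVars false

namespace Cfsg.Agent.H565.Br

open Cfsg Subgroup Cfsg.Agent.H565.OddBorel
open scoped Pointwise

/-- Subgroups of order prime to three containing a Sylow `p`-subgroup `S` are `G` or normalise `S`. -/
def ThreeLe (p : ℕ) (G : Type*) [Group G] : Prop :=
  ∀ (S : Sylow p G) (H : Subgroup G), (S : Subgroup G) ≤ H → ¬ 3 ∣ Nat.card H →
    H = ⊤ ∨ H ≤ normalizer ((S : Subgroup G) : Set G)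

theorem ThreeLe.of_one {p : ℕ} [Fact p.Prime] {G : Type*} [Group G] [Finite G] (Q : Sylow p G)
    (h : ∀ H : Subgroup G, (Q : Subgroup G) ≤ H → ¬ 3 ∣ Nat.card H →
      H = ⊤ ∨ H ≤ normalizer ((Q : Subgroup G) : Set G)) : ThreeLe p G := by
  intro S H hSH h3
  obtain ⟨k, hk⟩ := MulAction.exists_smul_eq G S Q
  have h1 := h (H.map (MulAut.conj k).toMonoidHom) (by
    intro y hy
    refine ⟨k⁻¹ * y * k, hSH ?_, ?_⟩
    · rw [mem_conj_iff hk]
      have e1 : k * (k⁻¹ * y * k) * k⁻¹ = y := by group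
      rwa [e1]
    · show k * (k⁻¹ * y * k) * k⁻¹ = y
      group) (by rwa [H164.card_map_conj])
  rcases h1 with h1 | h1
  · left
    rw [eq_top_iff]
    intro g _
    have h2 : k * g * k⁻¹ ∈ H.map (MulAut.conj k).toMonoidHom := by rw [h1]; exact mem_top _
    obtain ⟨y, hy, e⟩ := h2
    have h3 : y = g := mul_left_cancel (mul_right_cancel (show k * y * k⁻¹ = k * g * k⁻¹ from e))
    rwa [← h3]
  · right
    intro g hg
    rw [mem_normalizer_conj_iff hk]
    exact h1 ⟨g, hg, rfl⟩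

section Rgd

open CoxeterSystem Cfsg.Agent.ChevalleyStructure.CoxeterGeom Cfsg.Agent.Tits.Roots Cfsg.Agent.Tits.Core
  Cfsg.Agent.Nodes.Reps Cfsg.Agent.Nodes.BNOf Cfsg.Agent.Nodes.StabComb
  Cfsg.Agent.Nodes.Bruhat Cfsg.Agent.Nodes.OppDec Cfsg.Agent.Nodes.LeviDec

theorem threeLe_of_hasBr {G : Type*} [Group G] [Finite G] {p : ℕ} [Fact p.Prime] (hG : HasBr p G) : ThreeLe p G := by
  obtain ⟨l, M, A, h, T, n, X, hW, R, hG, hbr⟩ := hG
  have hGG : GG M.toCoxeterSystem h T X = ⊤ := by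
    rw [eq_top_iff, ← hG]
    exact le_sup_right
  have h1 := KFacts.RgdSyl.not_dvd_relIndex R
  rw [hGG, Subgroup.relIndex_top_right] at h1
  exact ThreeLe.of_one (R.isPGroup_Upos.toSylow h1) fun H hH h3 =>
    Or.inr (le_normalizer_of_three R hbr hH (by rw [hGG]; exact le_top) h3)

end Rgd

/-- `TI p G` and the dichotomy for overgroups of Sylow subgroups -/
theorem threeLe_of_ti {G : Type*} [Group G] [Finite G] {p : ℕ} [Fact p.Prime] (h : H794.TI p G)
    (hd : H248.Ovg.Dich p G) : ThreeLe p G := by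
  obtain ⟨U, hU, hUi, hd⟩ := hd
  refine ThreeLe.of_one (hU.toSylow hUi) fun H hH _ => ?_
  have hH' : U ≤ H := hH
  rcases hd H hH' with h1 | ⟨V, hV1, hVp, hVH, hHV⟩
  · exact Or.inl h1
  · right
    obtain ⟨Q, hQ⟩ := hVp.exists_le_sylow
    obtain ⟨x, hx, hx1⟩ := V.bot_or_exists_ne_one.resolve_left hV1
    have h2 : H ≤ normalizer ((Q : Subgroup G) : Set G) := fun g hg =>
      h Q x (hQ hx) hx1 g (hQ ((mem_normalizer_iff.1 (hHV hg) x).1 hx))
    have h3 : U ≤ Q := by
      have h3 : IsPGroup p ((Q : Subgroup G) ⊔ U : Subgroup G) :=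
        IsPGroup.to_sup_of_normal_left' Q.isPGroup' hU (hH'.trans h2)
      have h4 := Q.is_maximal' h3 le_sup_left
      rw [← h4]
      exact le_sup_right
    have h4 : (Q : Subgroup G) = U := by
      have h5 := (hU.toSylow hUi).is_maximal' Q.isPGroup' h3
      exact h5
    rw [h4] at h2
    exact h2

/-- the braid relation: all groups of Lie type except `Sz(q)`, `²F₄(q)`, `²G₂(q)` -/
theorem hasBr_of_lie {p : ℕ} [Fact p.Prime] {G : Type*} [Group G] (hG : IsLieTypeChar p G) :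
    HasBr p G ∨ (p = 2 ∧ Lie.IsoSuzuki G) ∨ (p = 2 ∧ Lie.Iso2F4 G) ∨ (p = 3 ∧ Lie.IsoRee G) := by
  rcases hG with h | h | h | h | h | h | h | h | h | h | h
  · exact Or.inl (hasBr_psl h)
  · obtain ⟨F, _, _, _, m, hm, -, ⟨e⟩⟩ := h
    exact Or.inl ((hasBr_PSp (by omega)).of_equiv e.symm)
  · obtain ⟨F, _, _, _, n, q, hF, hn, -, ⟨e⟩⟩ := h
    exact Or.inl ((hasBr_PSU hF hn).of_equiv e.symm)
  · left
    obtain ⟨F, _, _, _, m, hm, hodd, ⟨e⟩⟩ := h
    have h2 : (2 : F) ≠ 0 := by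
      intro h2
      have h3 : CharP F 2 := CharTwo.of_one_ne_zero_of_two_eq_zero one_ne_zero h2
      obtain ⟨k, -, hk⟩ := FiniteField.card F 2
      rw [hk] at hodd
      exact absurd hodd (by
        rw [Nat.not_odd_iff_even]
        exact (even_two).pow_of_ne_zero k.ne_zero)
    exact (hasBr_PO_odd h2 (by omega)).of_equiv e.symm
  · obtain ⟨F, _, _, _, m, hm, ⟨e⟩⟩ := h
    obtain ⟨n, rfl⟩ : ∃ n, m = n + 3 := ⟨m - 3, by omega⟩
    exact Or.inl ((hasBr_PO_plus n).of_equiv e.symm)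
  · obtain ⟨F, _, _, _, m, a, b, hm, hab, ⟨e⟩⟩ := h
    exact Or.inl ((hasBr_PO_minus a b hab (by omega)).of_equiv e.symm)
  · exact Or.inl (hasBr_exc h)
  · exact Or.inl (hasBr_tw h)
  · exact Or.inr (Or.inl h)
  · exact Or.inr (Or.inr (Or.inl h))
  · exact Or.inr (Or.inr (Or.inr h))

/-- Hall subgroups of order prime to three containing a Sylow `p`-subgroup `S` are `G` or normalise `S`. -/
def HallLe (p : ℕ) (G : Type*) [Group G] : Prop :=
  ∀ (π : Set ℕ) (S : Sylow p G) (H : Subgroup G), Cfsg.IsPiHall π H → 3 ∉ π → (S : Subgroup G) ≤ H →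
    H = ⊤ ∨ H ≤ normalizer ((S : Subgroup G) : Set G)

theorem not_three_dvd {G : Type*} [Group G] {π : Set ℕ} {H : Subgroup G} (hH : Cfsg.IsPiHall π H) (h3 : 3 ∉ π) :
    ¬ 3 ∣ Nat.card H := fun h => h3 (hH.1 3 Nat.prime_three h)

theorem ThreeLe.hallLe {p : ℕ} {G : Type*} [Group G] (h : ThreeLe p G) : HallLe p G :=
  fun _ S H hH h3 hS => h S H hS (not_three_dvd hH h3)

theorem HallLe.of_one {p : ℕ} [Fact p.Prime] {G : Type*} [Group G] [Finite G] (Q : Sylow p G)
    (h : ∀ (π : Set ℕ) (H : Subgroup G), Cfsg.IsPiHall π H → 3 ∉ π → (Q : Subgroup G) ≤ H →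
      H = ⊤ ∨ H ≤ normalizer ((Q : Subgroup G) : Set G)) : HallLe p G := by
  intro π S H hH h3 hSH
  obtain ⟨k, hk⟩ := MulAction.exists_smul_eq G S Q
  have h1 := h π (H.map (MulAut.conj k).toMonoidHom) (H164.hall_map_conj hH k) h3 (by
    intro y hy
    refine ⟨k⁻¹ * y * k, hSH ?_, ?_⟩
    · rw [mem_conj_iff hk]
      have e1 : k * (k⁻¹ * y * k) * k⁻¹ = y := by group
      rwa [e1]
    · show k * (k⁻¹ * y * k) * k⁻¹ = y
      group)
  rcases h1 with h1 | h1
  · left
    rw [eq_top_iff]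
    intro g _
    have h2 : k * g * k⁻¹ ∈ H.map (MulAut.conj k).toMonoidHom := by rw [h1]; exact mem_top _
    obtain ⟨y, hy, e⟩ := h2
    have h3 : y = g := mul_left_cancel (mul_right_cancel (show k * y * k⁻¹ = k * g * k⁻¹ from e))
    rwa [← h3]
  · right
    intro g hg
    rw [mem_normalizer_conj_iff hk]
    exact h1 ⟨g, hg, rfl⟩

/-- **the conjugacy of the Hall subgroups** -/
theorem conj_of_hallLe {p : ℕ} [Fact p.Prime] {G : Type*} [Group G] [Finite G] (hO : HallLe p G)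
    (hB : BorelSolv p G) {π : Set ℕ} (h3 : 3 ∉ π) (hpπ : p ∈ π) {H K : Subgroup G} (hH : Cfsg.IsPiHall π H)
    (hK : Cfsg.IsPiHall π K) : ∃ g : G, K = MulAut.conj g • H := by
  obtain ⟨S⟩ : Nonempty (Sylow p G) := inferInstance
  obtain ⟨a, ha⟩ := exists_conj_le hpπ hH S
  obtain ⟨b, hb⟩ := exists_conj_le hpπ hK S
  have hH' := H164.hall_map_conj hH a
  have hK' := H164.hall_map_conj hK b
  have hcard : Nat.card H = Nat.card K := H164.hall_card_eq hH hK
  have hHtop : ∀ {L : Subgroup G} {c : G}, L.map (MulAut.conj c).toMonoidHom = ⊤ → Nat.card L = Nat.card G := by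
    intro L c hL
    rw [← H164.card_map_conj L c, hL, card_top]
  have htop : ∀ {L : Subgroup G}, Nat.card L = Nat.card G → L = ⊤ := fun h => (card_eq_iff_eq_top _).1 h
  rcases hO π S _ hH' h3 ha with h1 | h1
  · have e1 := hHtop h1
    have e2 := htop e1
    have e3 := htop (hcard ▸ e1)
    refine ⟨1, ?_⟩
    rw [e2, e3, map_one, one_smul]
  rcases hO π S _ hK' h3 hb with h2 | h2
  · have e1 := hHtop h2
    have e2 := htop e1
    have e3 := htop (hcard.symm ▸ e1)
    refine ⟨1, ?_⟩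
    rw [e2, e3, map_one, one_smul]
  obtain ⟨g, hg⟩ := conj_of_le_solvable hH' hK' h1 h2 (hB S)
  refine ⟨b⁻¹ * g * a, ?_⟩
  have h4 : K = (K.map (MulAut.conj b).toMonoidHom).map (MulAut.conj b⁻¹).toMonoidHom := by
    rw [Subgroup.map_map]
    have : ((MulAut.conj b⁻¹).toMonoidHom.comp (MulAut.conj b).toMonoidHom : G →* G) = MonoidHom.id G := by
      ext x
      show b⁻¹ * (b * x * b⁻¹) * b⁻¹⁻¹ = x
      group
    rw [this, Subgroup.map_id]
  rw [h4, hg, Subgroup.map_map, Subgroup.map_map]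
  show Subgroup.map _ H = Subgroup.map (MulAut.conj (b⁻¹ * g * a)).toMonoidHom H
  congr 1
  ext x
  show b⁻¹ * (g * (a * x * a⁻¹) * g⁻¹) * b⁻¹⁻¹ = (b⁻¹ * g * a) * x * (b⁻¹ * g * a)⁻¹
  group

/-- **the normaliser of a Sylow 2-subgroup is solvable** (theorem of Feit and Thompson) -/
theorem borelSolv_two (G : Type*) [Group G] [Finite G] : BorelSolv 2 G := by
  intro S
  have : Fact (Nat.Prime 2) := ⟨Nat.prime_two⟩
  set N := normalizer ((S : Subgroup G) : Set G) with hN
  have hle : (S : Subgroup G) ≤ N := le_normalizer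
  have hnor : ((S : Subgroup G).subgroupOf N).Normal := Subgroup.normal_in_normalizer
  rw [Group.isSolvable_iff_subgroup_quotient ((S : Subgroup G).subgroupOf N)]
  constructor
  · have h1 : IsPGroup 2 ↥((S : Subgroup G).subgroupOf N) :=
      S.isPGroup'.comap_of_injective N.subtype (Subgroup.subtype_injective _)
    have h2 := h1.isNilpotent
    infer_instance
  · apply S0205.result
    rw [← Subgroup.index_eq_card, ← Nat.not_even_iff_odd, even_iff_two_dvd]
    intro h
    exact S.not_dvd_index (h.trans (Subgroup.relIndex_dvd_index_of_le hle))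

end Cfsg.Agent.H565.Br
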