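import Cfsg.Agent.H565.TwF4Three

/-!
# Hall subgroups of order prime to three of `²F₄(q)` and of the Tits group

* `hallLe_2F4`, `hallLe_tits` : Hall `π`-subgroups, `3 ∉ π`, containing a Sylow 2-subgroup `S` normalise `S`.
-/

set_option autoImplicit false
set_option linter.unusedSectionVars false

namespace Cfsg.Agent.H565.Br

open Subgroup Cfsg Cfsg.Lie

theorem HallLe.of_equiv {p : ℕ} [Fact p.Prime] {G X : Type*} [Group G] [Finite G] [Group X] [Finite X]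
    (h : HallLe p G) (e : G ≃* X) : HallLe p X := by
  obtain ⟨Q⟩ : Nonempty (Sylow p G) := inferInstance
  have hs : Function.Surjective e.toMonoidHom := e.surjective
  have hQ : ((Q.mapSurjective hs : Sylow p X) : Subgroup X) = (Q : Subgroup G).map e.toMonoidHom := rfl
  refine HallLe.of_one (Q.mapSurjective hs) fun π H hH h3 hQH => ?_
  rw [hQ] at hQH ⊢
  have hcard : Nat.card (H.comap e.toMonoidHom) = Nat.card H := by
    have h1 : (H.comap e.toMonoidHom).map e.toMonoidHom = H := Subgroup.map_comap_eq_self_of_surjective hs H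
    conv_rhs => rw [← h1]
    exact (Nat.card_congr ((H.comap e.toMonoidHom).equivMapOfInjective e.toMonoidHom e.injective).toEquiv)
  have hidx : (H.comap e.toMonoidHom).index = H.index := Subgroup.index_comap_of_surjective H hs
  have hH' : Cfsg.IsPiHall π (H.comap e.toMonoidHom) := by
    refine ⟨fun r hr hrd => hH.1 r hr (by rwa [← hcard]), fun r hr hrπ hrd => hH.2 r hr hrπ (by rwa [← hidx])⟩
  rcases h π Q _ hH' h3 (Subgroup.map_le_iff_le_comap.1 hQH) with h1 | h1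
  · left
    rw [eq_top_iff]
    intro x _
    have h2 : e.symm x ∈ H.comap e.toMonoidHom := by rw [h1]; exact mem_top _
    have h4 : e (e.symm x) ∈ H := h2
    rwa [e.apply_symm_apply] at h4
  · right
    intro x hx
    have h2 : e.symm x ∈ H.comap e.toMonoidHom := by
      show e (e.symm x) ∈ H
      rwa [e.apply_symm_apply]
    have h4 := h1 h2
    rw [mem_normalizer_iff] at h4 ⊢
    have key : ∀ y : X, y ∈ (Q : Subgroup G).map e.toMonoidHom ↔ e.symm y ∈ (Q : Subgroup G) := by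
      intro y
      constructor
      · rintro ⟨z, hz, rfl⟩
        show e.symm (e z) ∈ _
        rwa [e.symm_apply_apply]
      · intro hy
        exact ⟨_, hy, e.apply_symm_apply y⟩
    intro y
    show y ∈ (Q : Subgroup G).map e.toMonoidHom ↔ x * y * x⁻¹ ∈ (Q : Subgroup G).map e.toMonoidHom
    rw [key, key, map_mul, map_mul, map_inv]
    exact h4 _

end Cfsg.Agent.H565.Br

namespace Cfsg.Agent.H565.Br.F4

open Cfsg.Agent.KFacts.TwF4 Cfsg.Agent.KFacts.TwF4.Full Cfsg.Agent.KFacts.TwF4.Arc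
open Cfsg.Agent.KFacts.TwF4.Inv Cfsg.Agent.KFacts.TwF4.SylU
open Cfsg.Agent.SplitTwo Cfsg.Agent.SplitTwo.ZS Cfsg.Agent.TitsThree.RankTwoZ
open Cfsg.Agent.SplitTwo.RootSysZ Subgroup Cfsg Cfsg.Lie Cfsg.Agent.H248.Ovg Cfsg.Agent.H248.TwF4Over

universe u

variable {F : Type*} [Field F] {σ : F →+* F} {G : Type u} [Group G] (S : Full σ G)

theorem card_X8 : Nat.card (S.XZ 8) = Nat.card F ^ 2 := by
  rw [pow_two, ← Nat.card_prod]
  refine (Nat.card_congr (Equiv.ofBijective (fun t : F × F => (⟨S.e 4 t.1 t.2, S.mX8 t.1 t.2⟩ : ↥(S.XZ 8)))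
    ⟨?_, ?_⟩)).symm
  · rintro ⟨p, u⟩ ⟨q, v⟩ h
    obtain ⟨rfl, rfl⟩ := S.injE _ _ _ _ _ (congrArg Subtype.val h)
    rfl
  · rintro ⟨g, hg⟩
    obtain ⟨p, u, rfl⟩ := (mem_X8 S).1 hg
    exact ⟨(p, u), rfl⟩

theorem card_T : Nat.card S.T = Nat.card Fˣ ^ 2 := by
  rw [pow_two, ← Nat.card_prod]
  refine (Nat.card_congr (Equiv.ofBijective (fun t : Fˣ × Fˣ => (⟨S.h t.1 t.2, S.mem_T.2 ⟨_, _, rfl⟩⟩ : ↥(S.T)))
    ⟨?_, ?_⟩)).symm
  · rintro ⟨p, u⟩ ⟨q, v⟩ h
    obtain ⟨rfl, rfl⟩ := S.h_inj _ _ _ _ (congrArg Subtype.val h)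
    rfl
  · rintro ⟨g, hg⟩
    obtain ⟨p, u, rfl⟩ := S.mem_T.1 hg
    exact ⟨(p, u), rfl⟩

/-- the whole parabolic subgroup -/
theorem card_P [Finite G] : Nat.card ↥(normalizer (S.Zc 2 : Set G)) = Nat.card (UT S) * (Nat.card F ^ 2 + 1) := by
  have hPL : S.PL ≤ normalizer (S.Zc 2 : Set G) := fun x hx =>
    mem_P S ⟨x, hx, 1, one_mem _, 1, one_mem _, by rw [mul_one, mul_one]⟩
  have hT : S.T ≤ normalizer (S.Zc 2 : Set G) := fun x hx =>
    mem_P S ⟨1, one_mem _, x, hx, 1, one_mem _, by rw [one_mul, mul_one]⟩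
  have hUT : UT S ≤ normalizer (S.Zc 2 : Set G) := by
    rintro _ ⟨b, hb, t, ht, rfl⟩
    exact mul_mem (hPL (J_mono (by norm_num) le_rfl hb)) (hT ht)
  rw [card_of_le S le_rfl ((X_le_J (by norm_num) le_rfl : S.XZ 8 ≤ S.PL).trans hPL) (hPL S.n2_mem),
    inf_eq_right.2 hUT, card_X8]

theorem five_dvd (m : ℕ) : 5 ∣ (2 ^ (2 * m + 1)) ^ 2 + 1 := by
  have h : (2 ^ (2 * m + 1)) ^ 2 + 1 ≡ 0 [MOD 5] := by
    have h1 : (2 ^ (2 * m + 1)) ^ 2 = 16 ^ m * 4 := by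
      rw [← pow_mul, show (16 : ℕ) = 2 ^ 4 by norm_num, ← pow_mul, show (4 : ℕ) = 2 ^ 2 by norm_num, ← pow_add]
      congr 1
      ring
    rw [h1]
    calc 16 ^ m * 4 + 1 ≡ 1 ^ m * 4 + 1 [MOD 5] :=
          Nat.ModEq.add_right _ (Nat.ModEq.mul_right _ (Nat.ModEq.pow m (by decide)))
      _ ≡ 0 [MOD 5] := by rw [one_pow]; decide
  exact (Nat.modEq_zero_iff_dvd).1 h

theorem five_not_dvd (m : ℕ) : ¬ 5 ∣ 2 ^ (2 * m + 1) - 1 := by
  intro h
  have h1 : 5 ∣ (2 ^ (2 * m + 1)) ^ 2 - 1 := by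
    have e : (2 ^ (2 * m + 1)) ^ 2 - 1 = (2 ^ (2 * m + 1) + 1) * (2 ^ (2 * m + 1) - 1) := by
      rw [← Nat.sq_sub_sq, one_pow]
    rw [e]
    exact h.mul_left _
  have h2 := five_dvd m
  have h3 : 0 < (2 ^ (2 * m + 1)) ^ 2 := by positivity
  have h4 := Nat.dvd_sub h2 h1
  have h5 : (2 ^ (2 * m + 1)) ^ 2 + 1 - ((2 ^ (2 * m + 1)) ^ 2 - 1) = 2 := by omega
  rw [h5] at h4
  exact absurd h4 (by norm_num)

/-- `(q²+1)²` divides the order of `²F₄(q)` -/
theorem sq_dvd (q : ℕ) (hq : 1 ≤ q) : (q ^ 2 + 1) ^ 2 ∣ q ^ 12 * (q - 1) * (q ^ 3 + 1) * (q ^ 4 - 1) * (q ^ 6 + 1) := by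
  obtain ⟨k, rfl⟩ : ∃ k, q = k + 1 := ⟨q - 1, by omega⟩
  have h4 : (k + 1) ^ 4 - 1 = ((k + 1) ^ 2 + 1) * ((k + 1) ^ 2 - 1) := by
    rw [show (k + 1) ^ 4 = ((k + 1) ^ 2) ^ 2 by ring]
    rw [show ((k + 1) ^ 2) ^ 2 - 1 = ((k + 1) ^ 2) ^ 2 - 1 ^ 2 by norm_num, Nat.sq_sub_sq]
  have h6 : ((k + 1) ^ 2 + 1) ∣ (k + 1) ^ 6 + 1 := by
    have h7 : (k + 1) ^ 6 + 1 = ((k + 1) ^ 2 + 1) * ((k + 1) ^ 4 + 1 - (k + 1) ^ 2) := by
      have h8 : (k + 1) ^ 2 ≤ (k + 1) ^ 4 + 1 := (Nat.pow_le_pow_right (by omega) (by norm_num)).trans (Nat.le_succ _)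
      zify [h8]
      ring
    rw [h7]
    exact Dvd.intro _ rfl
  rw [pow_two]
  refine Nat.mul_dvd_mul ?_ h6
  rw [h4]
  exact (Dvd.intro _ rfl : _ ∣ _).mul_left _

/-- **the Borel subgroup contains the Hall overgroups of `U` of order prime to three** -/
theorem le_UT [Finite F] [Finite G] (hR : S.R.p = 2) {m : ℕ} (hF : Nat.card F = 2 ^ (2 * m + 1))
    (hG : Nat.card G = (2 ^ (2 * m + 1)) ^ 12 * (2 ^ (2 * m + 1) - 1) * ((2 ^ (2 * m + 1)) ^ 3 + 1) *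
      ((2 ^ (2 * m + 1)) ^ 4 - 1) * ((2 ^ (2 * m + 1)) ^ 6 + 1)) {H : Subgroup G} (hU : J S.XZ 1 8 ≤ H)
    (h3 : ¬ 3 ∣ Nat.card H) (h5 : 5 ∣ Nat.card H → ¬ 5 ∣ H.index) : H ≤ UT S := by
  have : Fact (Nat.Prime 2) := ⟨Nat.prime_two⟩
  rcases le_cases S (cond_top S) (mem_top _) (mem_top _) (by rwa [inf_top_eq]) h3 with h | ⟨hP, hn, -⟩
  · exact h
  exfalso
  have h8 : S.XZ 8 ≤ H := (X_le_J (by norm_num) le_rfl).trans hU
  have hc := card_of_le S hP h8 hn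
  rw [card_X8, hF] at hc
  have h51 : 5 ∣ Nat.card H := by
    rw [hc]
    exact (five_dvd m).mul_left _
  apply h5 h51
  have hPc := card_P S
  rw [hF, card_UT, card_T] at hPc
  have hFu : Nat.card Fˣ = 2 ^ (2 * m + 1) - 1 := by rw [Nat.card_units, hF]
  rw [hFu] at hPc
  have hU2 : IsPGroup 2 (J S.XZ 1 8) := isPGroup_J S.zsys8 (two_X S hR) 8 1 8 (by norm_num) (by norm_num)
  obtain ⟨k, hk⟩ := hU2.exists_card_eq
  rw [hk] at hPc
  have h6 : 5 ∣ (normalizer (S.Zc 2 : Set G)).index := by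
    have h7 := Subgroup.card_mul_index (normalizer (S.Zc 2 : Set G))
    rw [hPc, hG] at h7
    have h9 := sq_dvd (2 ^ (2 * m + 1)) Nat.one_le_two_pow
    rw [← h7] at h9
    set Q := (2 ^ (2 * m + 1)) ^ 2 + 1 with hQ
    have hQ0 : 0 < Q := Nat.succ_pos _
    have h10 : Q ∣ 2 ^ k * (2 ^ (2 * m + 1) - 1) ^ 2 * (normalizer (S.Zc 2 : Set G)).index := by
      have e : 2 ^ k * (2 ^ (2 * m + 1) - 1) ^ 2 * Q * (normalizer (S.Zc 2 : Set G)).index =
          Q * (2 ^ k * (2 ^ (2 * m + 1) - 1) ^ 2 * (normalizer (S.Zc 2 : Set G)).index) := by ring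
      rw [e, pow_two] at h9
      exact Nat.dvd_of_mul_dvd_mul_left hQ0 h9
    have h11 := (five_dvd m).trans h10
    rcases (Nat.Prime.dvd_mul Nat.prime_five).1 h11 with h12 | h12
    · rcases (Nat.Prime.dvd_mul Nat.prime_five).1 h12 with h13 | h13
      · exact absurd (Nat.Prime.dvd_of_dvd_pow Nat.prime_five h13) (by norm_num)
      · exact absurd (Nat.Prime.dvd_of_dvd_pow Nat.prime_five h13) (five_not_dvd m)
    · exact h12
  rw [← Subgroup.relIndex_mul_index hP]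
  exact h6.mul_left _

theorem hallLe_2F4 {X : Type*} [Group X] [Finite X] (h : Iso2F4 X) : HallLe 2 X := by
  obtain ⟨K, _, _, m, hm, hK, ⟨e⟩⟩ := h
  obtain ⟨φ, hφ⟩ := Cfsg.Agent.ChevalleyStructure.TwF4.TwistedFix.exists_rln hK
  have := Cfsg.Agent.ChevalleyStructure.TwF4.Twisted.charP_two hK
  have hfin : Finite ↥(twistedF4 K (2 ^ m)) := inferInstance
  have hfact : Fact (Nat.Prime 2) := ⟨Nat.prime_two⟩
  have hF : ∃ c : Kˣ, c ≠ 1 := by
    have h1 : 1 < Nat.card Kˣ := by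
      rw [Nat.card_units, Nat.card_eq_fintype_card, hK]
      have : 2 ^ 3 ≤ 2 ^ (2 * m + 1) := Nat.pow_le_pow_right (by norm_num) (by omega)
      omega
    have h2 : Nontrivial Kˣ := Finite.one_lt_card_iff_nontrivial.1 h1
    exact exists_ne 1
  obtain ⟨S, hS⟩ : ∃ S : Full φ ↥(twistedF4 K (2 ^ m)), S.R.p = 2 :=
    ⟨Cfsg.Agent.KFacts.TwF4.Inst.full hK hφ, rfl⟩
  refine HallLe.of_equiv ?_ e.symm
  obtain ⟨P, hP⟩ := exists_sylow S hF hS
  refine HallLe.of_one P fun π H hH h3 hPH => Or.inr ?_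
  rw [hP] at hPH ⊢
  exact (le_UT S hS (by rw [Nat.card_eq_fintype_card, hK]) (Cfsg.Agent.S1068.result hK) hPH
    (not_three_dvd hH h3) fun h5 => hH.2 5 Nat.prime_five (hH.1 5 Nat.prime_five h5)).trans (UT_le S)

/-! ### the Tits group -/

theorem two_units [Finite F] {N : Subgroup G} (T : Two F N) : Nat.card Fˣ = 1 := by
  have : Subsingleton Fˣ := ⟨fun a b => by
    apply Units.ext
    rcases T.two (a : F) with h | h
    · exact absurd h a.ne_zero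
    rcases T.two (b : F) with h' | h'
    · exact absurd h' b.ne_zero
    rw [h, h']⟩
  exact Nat.card_unique

/-- **the Tits group** -/
theorem tits_le [Finite F] [Finite G] (hR : S.R.p = 2) {N : Subgroup G} (T : Two F N) (hidx : N.index = 2)
    {m : ℕ} (hm : Odd m) (hcard : Nat.card N = 2 ^ 11 * m) (h25 : 25 ∣ m) {M : Subgroup N}
    (hU : (J S.XZ 1 8).subgroupOf N ≤ M) (h3 : ¬ 3 ∣ Nat.card M) (h5 : 5 ∣ Nat.card M → ¬ 5 ∣ M.index) :
    M ≤ (J S.XZ 1 8).subgroupOf N := by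
  have hfact : Fact (Nat.Prime 2) := ⟨Nat.prime_two⟩
  have hU2 : IsPGroup 2 (J S.XZ 1 8) := isPGroup_J S.zsys8 (two_X S hR) 8 1 8 (by norm_num) (by norm_num)
  have hT1 : Nat.card S.T = 1 := by rw [card_T, two_units T, one_pow]
  have hUT : ∀ g ∈ UT S, g ∈ J S.XZ 1 8 := by
    rintro _ ⟨b, hb, t, ht, rfl⟩
    have h1 : t = 1 := by
      have h2 : Subsingleton S.T := (Nat.card_eq_one_iff_unique.1 hT1).1
      exact congrArg Subtype.val (h2.elim (⟨t, ht⟩ : S.T) 1)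
    rw [h1, mul_one]
    exact hb
  have hcM : Nat.card (M.map N.subtype) = Nat.card M := Subgroup.card_subtype N M
  have hU' : J S.XZ 1 8 ⊓ N ≤ M.map N.subtype := by
    intro x hx
    exact ⟨⟨x, hx.2⟩, hU hx.1, rfl⟩
  rcases le_cases S (two_cond S T) (two_o_mem S T 0 1) (two_o_mem S T 4 1) hU' (by rwa [hcM]) with h | ⟨hP, hn, -⟩
  · intro x hx
    exact hUT _ (h ⟨x, hx, rfl⟩)
  exfalso
  -- the order of `M` divides `2 ^ 12 * 5`
  have hd : Nat.card M ∣ 2 ^ 12 * 5 := by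
    rw [← hcM]
    refine (Subgroup.card_dvd_of_le hP).trans ?_
    rw [card_P S, card_UT, hT1, two_card_U S T, two_card_F S T]
    norm_num
  by_cases h51 : 5 ∣ Nat.card M
  · -- `25` does not divide the order of `M`
    have h6 : 5 ∣ M.index := by
      by_contra h7
      have h8 : 25 ∣ Nat.card M * M.index := by
        rw [Subgroup.card_mul_index, hcard]
        exact h25.mul_left _
      have h9 : Nat.Coprime 25 M.index := by
        have : Nat.Coprime (5 ^ 2) M.index := Nat.Coprime.pow_left 2 ((Nat.Prime.coprime_iff_not_dvd Nat.prime_five).2 h7)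
        exact this
      have h10 := (h9.dvd_of_dvd_mul_right h8).trans hd
      exact absurd h10 (by norm_num)
    exact h5 h51 h6
  · have h6 : Nat.card M ∣ 2 ^ 12 := by
      have h7 : Nat.Coprime (Nat.card M) 5 := ((Nat.Prime.coprime_iff_not_dvd Nat.prime_five).2 h51).symm
      exact h7.dvd_of_dvd_mul_right hd
    obtain ⟨k, -, hk⟩ := (Nat.dvd_prime_pow Nat.prime_two).1 h6
    have h7 : IsPGroup 2 M := IsPGroup.of_card hk
    have hUp : IsPGroup 2 ((J S.XZ 1 8).subgroupOf N) := hU2.comap_of_injective N.subtype N.subtype_injective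
    have h8 := (hUp.toSylow (two_index S T hidx hm hcard)).is_maximal' h7 hU
    obtain ⟨y, hy, e⟩ := hn
    rw [h8] at hy
    have h9 : S.n2 ∈ J S.XZ 1 8 := by
      have : (y : G) ∈ J S.XZ 1 8 := hy
      rwa [show (y : G) = S.n2 from e] at this
    exact n2_not_mem S ⟨S.n2, h9, 1, one_mem _, (mul_one _).symm⟩

theorem hallLe_tits {X : Type*} [Group X] [Finite X] (h : IsoTits X) : HallLe 2 X := by
  obtain ⟨e⟩ := h
  have hfact : Fact (Nat.Prime 2) := ⟨Nat.prime_two⟩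
  obtain ⟨hidx, hs, hna, hcard⟩ := Cfsg.Agent.S1074.result
  have hK : Fintype.card (ZMod 2) = 2 ^ (2 * 0 + 1) := by rw [ZMod.card]; rfl
  obtain ⟨φ, hφ⟩ := Cfsg.Agent.ChevalleyStructure.TwF4.TwistedFix.exists_rln hK
  obtain ⟨S, hS⟩ : ∃ S : Full φ ↥(twistedF4 (ZMod 2) 1), S.R.p = 2 := by
    have h0 : ∃ S : Full φ ↥(twistedF4 (ZMod 2) (2 ^ 0)), S.R.p = 2 :=
      ⟨Cfsg.Agent.KFacts.TwF4.Inst.full hK hφ, rfl⟩
    rw [pow_zero] at h0
    exact h0
  have T : Two (ZMod 2) (commutator ↥(twistedF4 (ZMod 2) 1)) := by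
    refine ⟨?_, le_rfl, ?_⟩
    · intro x
      fin_cases x
      · exact Or.inl rfl
      · exact Or.inr rfl
    · intro h1
      rw [h1, Subgroup.index_top] at hidx
      norm_num at hidx
  have hfin : Finite ↥(twistedF4 (ZMod 2) 1) := inferInstance
  obtain ⟨m, hm⟩ : ∃ m : ℕ, m = 3 ^ 3 * 5 ^ 2 * 13 := ⟨_, rfl⟩
  have hodd : Odd m := ⟨4387, by rw [hm]; norm_num⟩
  have hc2 : Nat.card TitsGroup = 2 ^ 11 * m := by rw [hcard, hm, mul_assoc, mul_assoc, mul_assoc]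
  have h25 : 25 ∣ m := ⟨3 ^ 3 * 13, by rw [hm]; norm_num⟩
  have hfin2 : Finite TitsGroup := Finite.of_equiv _ e.toEquiv
  refine @HallLe.of_equiv 2 hfact TitsGroup X _ hfin2 _ _ ?_ e.symm
  have hU2 : IsPGroup 2 (J S.XZ 1 8) := isPGroup_J S.zsys8 (two_X S hS) 8 1 8 (by norm_num) (by norm_num)
  have hUp : IsPGroup 2 ((J S.XZ 1 8).subgroupOf (commutator ↥(twistedF4 (ZMod 2) 1))) :=
    hU2.comap_of_injective _ (Subgroup.subtype_injective _)
  refine HallLe.of_one (hUp.toSylow (two_index S T hidx hodd hc2)) fun π H hH h3 hPH => Or.inr ?_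
  exact (tits_le S hS T hidx hodd hc2 h25 hPH (not_three_dvd hH h3)
    fun h5 => hH.2 5 Nat.prime_five (hH.1 5 Nat.prime_five h5)).trans le_normalizer

end Cfsg.Agent.H565.Br.F4
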