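import Cfsg.Agent.H565.ThreeLe
import Cfsg.Agent.H248.TitsDich
import Cfsg.Agent.KFacts.TwF4.TorFix
import Cfsg.Agent.S1068

/-!
# `²F₄(q)`: overgroups of the Sylow 2-subgroups of order prime to three

`S : Full σ G`, `U = J 1 8`, `P = N(Z_4)`:
* `three_dvd` : `X_1, X_9` in `M` imply `3 ∣ |M|`;
* `card_of_le` : `|K| = |K ∩ UT| (1 + |X_8|)` for `X_8, n_2 ≤ K ≤ P`;
* `le_normalizer` : a subgroup `H ≥ U` of order prime to three with `5 ∣ |H| → 5 ∤ |G : H|` normalises `U`.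
-/

set_option autoImplicit false
set_option linter.unusedSectionVars false

namespace Cfsg.Agent.H565.Br.F4

open Cfsg.Agent.KFacts.TwF4 Cfsg.Agent.KFacts.TwF4.Full Cfsg.Agent.KFacts.TwF4.Arc
open Cfsg.Agent.KFacts.TwF4.Inv Cfsg.Agent.KFacts.TwF4.SylU
open Cfsg.Agent.SplitTwo Cfsg.Agent.SplitTwo.ZS Cfsg.Agent.TitsThree.RankTwoZ
open Cfsg.Agent.SplitTwo.RootSysZ Subgroup Cfsg Cfsg.Lie Cfsg.Agent.H248.Ovg Cfsg.Agent.H248.TwF4Over

universe u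

variable {F : Type*} [Field F] {σ : F →+* F} {G : Type u} [Group G] (S : Full σ G)

/-- **the long root `SL_2` gives three** -/
theorem three_dvd [Finite G] {M : Subgroup G} (h1 : S.o 0 1 ∈ M) (h9 : S.o 4 1 ∈ M) : 3 ∣ Nat.card M := by
  by_contra h3
  have hb : S.n1 * S.o 0 1 * S.n1⁻¹ = S.o 4 1 := by
    rw [S.n1_o, sub_zero]
  have h := eq_of_braid S.n1_word hb h1 h9 h3
  have m1 : S.o 0 1 ∈ S.R.X (od 0) := (S.mem_odd 0 _).2 ⟨1, rfl⟩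
  have m9 : S.o 0 1 ∈ S.R.X (od 4) := by rw [h]; exact (S.mem_odd 4 _).2 ⟨1, rfl⟩
  have h2 := S.X_inf (by decide) m1 m9
  exact one_ne_zero (S.o_eq_one h2)

/-- the form of the elements of the parabolic subgroup `N(Z_4)` -/
theorem form {g : G} (hg : g ∈ normalizer (S.Zc 2 : Set G)) : (∃ b ∈ J S.XZ 1 8, ∃ t ∈ S.T, g = b * t) ∨
    ∃ b ∈ J S.XZ 1 8, ∃ t ∈ S.T, ∃ x ∈ S.XZ 8, g = b * (t * S.n2) * x := by
  have Z8 := S.zsys8
  have hz : S.e 2 0 1 ∈ S.Zc 2 := ⟨1, rfl⟩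
  have hz1 : S.e 2 0 1 ≠ 1 := fun h => one_ne_zero (S.e_eq_one h).2
  have h1 : g * S.e 2 0 1 * g⁻¹ ∈ S.Zc 2 := (mem_normalizer_iff.1 hg _).1 hz
  obtain ⟨b, hb, t, ht, rfl | ⟨b', hb', rfl⟩⟩ := S.form_of_conj hz hz1 h1
  · exact Or.inl ⟨b, hb, t, ht, rfl⟩
  · right
    obtain ⟨r, hr, x, hx, rfl⟩ := Z8.split_rr (a := 1) (b := 8) (by norm_num) (by norm_num) hb'
    have h2 : t * (S.n2 * r * S.n2⁻¹) * t⁻¹ ∈ J S.XZ 1 7 :=
      S.T_conj_J ht (S.n2_refl.mem_J hr (by norm_num) (by norm_num))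
    exact ⟨b * (t * (S.n2 * r * S.n2⁻¹) * t⁻¹), mul_mem hb (J_mono le_rfl (by norm_num) h2), t, ht, x, hx, by group⟩

/-- the Borel subgroup -/
def UT : Subgroup G where
  carrier := {g | ∃ b ∈ J S.XZ 1 8, ∃ t ∈ S.T, g = b * t}
  one_mem' := ⟨1, one_mem _, 1, one_mem _, (mul_one 1).symm⟩
  mul_mem' := by
    rintro _ _ ⟨b, hb, t, ht, rfl⟩ ⟨b', hb', t', ht', rfl⟩
    exact ⟨b * (t * b' * t⁻¹), mul_mem hb (S.T_conj_J ht hb'), t * t', mul_mem ht ht', by group⟩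
  inv_mem' := by
    rintro _ ⟨b, hb, t, ht, rfl⟩
    have h1 := S.T_conj_J (inv_mem ht) (inv_mem hb)
    exact ⟨_, h1, t⁻¹, inv_mem ht, by group⟩

theorem mem_UT {g : G} : g ∈ UT S ↔ ∃ b ∈ J S.XZ 1 8, ∃ t ∈ S.T, g = b * t := Iff.rfl

theorem conj_UT' {g : G} (hg : g ∈ UT S) {x : G} (hx : x ∈ J S.XZ 1 8) : g * x * g⁻¹ ∈ J S.XZ 1 8 := by
  obtain ⟨b, hb, t, ht, rfl⟩ := hg
  have h1 := mul_mem (mul_mem hb (S.T_conj_J ht hx)) (inv_mem hb)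
  have e : b * t * x * (b * t)⁻¹ = b * (t * x * t⁻¹) * b⁻¹ := by group
  rwa [e]

theorem UT_le : UT S ≤ normalizer (J S.XZ 1 8 : Set G) := by
  intro g hg
  rw [mem_normalizer_iff]
  intro x
  refine ⟨fun hx => conj_UT' S hg hx, fun hx => ?_⟩
  have h1 := conj_UT' S (inv_mem hg) hx
  have e : g⁻¹ * (g * x * g⁻¹) * g⁻¹⁻¹ = x := by group
  rwa [e] at h1

/-- `n_2 ∉ N(U)` -/
theorem n2_not_mem : S.n2 ∉ UT S := by
  intro h
  have hx : S.e 4 1 0 ∈ J S.XZ 1 8 := X_le_J (by norm_num) le_rfl (S.mX8 1 0)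
  have h1 := conj_UT' S h hx
  rw [S.n2_e, sub_self] at h1
  have h2 : S.e 0 1 0 ∈ S.XZ 0 := (mem_X0 S).2 ⟨1, 0, rfl⟩
  obtain ⟨r, hr, x, hx8, hrx⟩ := S.zsys8.split_rr (a := 1) (b := 8) (by norm_num) (by norm_num) h1
  have h3 := S.J07_inf_UT h2 h1 (one_mem S.T) (mul_one _).symm
  exact one_ne_zero (S.e_eq_one h3.1).1

theorem card_UT [Finite G] : Nat.card (UT S) = Nat.card (J S.XZ 1 8) * Nat.card S.T := by
  rw [← Nat.card_prod]
  symm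
  refine Nat.card_eq_of_bijective
    (fun y : ↥(J S.XZ 1 8) × ↥S.T => (⟨y.1 * y.2, y.1, y.1.2, y.2, y.2.2, rfl⟩ : UT S)) ⟨?_, ?_⟩
  · rintro ⟨⟨b, hb⟩, ⟨t, ht⟩⟩ ⟨⟨b', hb'⟩, ⟨t', ht'⟩⟩ h
    have h1 : b * t = b' * t' := congrArg Subtype.val h
    have h2 : t * t'⁻¹ = b⁻¹ * b' := by
      rw [eq_inv_mul_iff_mul_eq, ← mul_assoc, h1]; group
    have h3 := S.U_inf_T (mul_mem ht (inv_mem ht')) (by rw [h2]; exact mul_mem (inv_mem hb) hb')
    have h4 : t = t' := mul_inv_eq_one.1 h3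
    subst h4
    have h5 : b = b' := mul_right_cancel h1
    subst h5
    rfl
  · rintro ⟨_, b, hb, t, ht, rfl⟩
    exact ⟨(⟨b, hb⟩, ⟨t, ht⟩), rfl⟩

/-- **`|K| = |K ∩ UT| (1 + |X_8|)`** -/
theorem card_of_le [Finite G] {K : Subgroup G} (hK : K ≤ normalizer (S.Zc 2 : Set G)) (h8 : S.XZ 8 ≤ K)
    (hn : S.n2 ∈ K) : Nat.card K = Nat.card (K ⊓ UT S : Subgroup G) * (Nat.card (S.XZ 8) + 1) := by
  have h8U : S.XZ 8 ≤ J S.XZ 1 8 := X_le_J (by norm_num) le_rfl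
  have e1 : Nat.card (Option ↥(S.XZ 8)) = Nat.card (S.XZ 8) + 1 := Finite.card_option
  rw [← e1, ← Nat.card_prod]
  symm
  let f : ↥(K ⊓ UT S : Subgroup G) × Option ↥(S.XZ 8) → K := fun y =>
    match y with
    | (y, none) => ⟨y, y.2.1⟩
    | (y, some x) => ⟨y * S.n2 * x, mul_mem (mul_mem y.2.1 hn) (h8 x.2)⟩
  have hUTx : ∀ y ∈ UT S, ∀ x ∈ S.XZ 8, y * S.n2 * x ∉ UT S := by
    intro y hy x hx h
    apply n2_not_mem S
    have hxT : x ∈ UT S := ⟨x, h8U hx, 1, one_mem _, (mul_one x).symm⟩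
    have := mul_mem (mul_mem (inv_mem hy) h) (inv_mem hxT)
    have e : y⁻¹ * (y * S.n2 * x) * x⁻¹ = S.n2 := by group
    rwa [e] at this
  refine Nat.card_eq_of_bijective f ⟨?_, ?_⟩
  · rintro ⟨⟨y, hy⟩, _ | ⟨x, hx⟩⟩ ⟨⟨y', hy'⟩, _ | ⟨x', hx'⟩⟩ h
    · have h1 : y = y' := congrArg Subtype.val h
      subst h1
      rfl
    · have h1 : y = y' * S.n2 * x' := congrArg Subtype.val h
      exact (hUTx y' hy'.2 x' hx' (h1 ▸ hy.2)).elim
    · have h1 : y * S.n2 * x = y' := congrArg Subtype.val h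
      exact (hUTx y hy.2 x hx (h1 ▸ hy'.2)).elim
    · have h1 : y * S.n2 * x = y' * S.n2 * x' := congrArg Subtype.val h
      obtain ⟨b, hb, t, ht, e⟩ := hy.2
      obtain ⟨b', hb', t', ht', e'⟩ := hy'.2
      have h2 : b * (t * S.n2) * x = b' * (t' * S.n2) * x' := by
        rw [e, e'] at h1
        calc b * (t * S.n2) * x = b * t * S.n2 * x := by group
          _ = b' * t' * S.n2 * x' := h1
          _ = _ := by group
      obtain ⟨h3, h4, h5⟩ := S.form_unique hb ht hx hb' ht' hx' h2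
      have h6 : y = y' := by rw [e, e', h3, h4]
      subst h6
      subst h5
      rfl
  · rintro ⟨g, hg⟩
    rcases form S (hK hg) with ⟨b, hb, t, ht, e⟩ | ⟨b, hb, t, ht, x, hx, e⟩
    · exact ⟨(⟨g, hg, b, hb, t, ht, e⟩, none), rfl⟩
    · have h1 : b * t = g * x⁻¹ * S.n2⁻¹ := by rw [e]; group
      have h2 : b * t ∈ K := by
        rw [h1]
        exact K.mul_mem (K.mul_mem hg (K.inv_mem (h8 hx))) (K.inv_mem hn)
      refine ⟨(⟨b * t, mem_inf.2 ⟨h2, b, hb, t, ht, rfl⟩⟩, some ⟨x, hx⟩), Subtype.ext ?_⟩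
      show b * t * S.n2 * x = g
      rw [e]; group

/-- the elements of `Z_4` commute with `PL`, the torus normalises `Z_4` -/
theorem mem_P {g : G} (h : ∃ b ∈ S.PL, ∃ t ∈ S.T, ∃ b' ∈ S.PL, g = b * t * b') :
    g ∈ normalizer (S.Zc 2 : Set G) := by
  have hPL : S.PL ≤ normalizer (S.Zc 2 : Set G) := by
    intro x hx
    rw [mem_normalizer_iff]
    intro z
    constructor
    · intro hz
      rw [S.comm_PL hx hz, mul_inv_cancel_right]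
      exact hz
    · intro hz
      have h1 := S.comm_PL (inv_mem hx) hz
      have e : z = x⁻¹ * (x * z * x⁻¹) * x := by group
      rw [e, h1, inv_mul_cancel_right]
      exact hz
  have hT : S.T ≤ normalizer (S.Zc 2 : Set G) := by
    intro x hx
    rw [mem_normalizer_iff]
    intro z
    refine ⟨fun hz => S.T_conj_Zc hx hz, fun hz => ?_⟩
    have h1 := S.T_conj_Zc (inv_mem hx) hz
    have e : x⁻¹ * (x * z * x⁻¹) * x⁻¹⁻¹ = z := by group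
    rwa [e] at h1
  obtain ⟨b, hb, t, ht, b', hb', rfl⟩ := h
  exact mul_mem (mul_mem (hPL hb) (hT ht)) (hPL hb')

/-- **the overgroups of `U ∩ N` of order prime to three** -/
theorem le_cases [Finite G] {N M : Subgroup G} (C : Cond S N) (ho0 : S.o 0 1 ∈ N) (ho4 : S.o 4 1 ∈ N)
    (hU : J S.XZ 1 8 ⊓ N ≤ M) (h3 : ¬ 3 ∣ Nat.card M) :
    M ≤ UT S ∨ (M ≤ normalizer (S.Zc 2 : Set G) ∧ S.n2 ∈ M ∧ S.XZ 0 ⊓ N ≤ M) := by
  have hU1 : S.o 0 1 ∈ M := hU (mem_inf.2 ⟨X_le_J (k := 1) le_rfl (by norm_num) ((mem_X1 S).2 ⟨1, rfl⟩), ho0⟩)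
  have h9 : ¬ Pm S N M 9 := by
    intro h9
    exact h3 (three_dvd S hU1 (h9 (mem_inf.2 ⟨(mem_X9 S).2 ⟨1, rfl⟩, ho4⟩)))
  have hNM : ¬ N ≤ M := fun h => h3 (three_dvd S (h ho0) (h ho4))
  have key : ∀ g ∈ M, ∃ b ∈ J S.XZ 1 8, ∃ n, ∃ b' ∈ J S.XZ 1 8, g = b * n * b' ∧ (n ∈ S.T ∨
      (n * S.n2 ∈ S.T ∧ Pm S N M 0)) := by
    intro g hg
    obtain ⟨b, hb, t, ht, w, hw, b', hb', rfl⟩ := S.bruhat g
    have hg' : b * (t * w) * b' ∈ M := by rwa [← mul_assoc]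
    refine ⟨b, hb, t * w, b', hb', by group, ?_⟩
    rcases types C hU hb hb' (torus_mul_maps C ht hw) hg' with h | h | ⟨-, h⟩ | ⟨h, h0⟩
    · exact absurd h hNM
    · left
      rw [S.T_iff]
      exact h
    · exact absurd h h9
    · right
      refine ⟨?_, h0⟩
      rw [S.T_iff]
      exact (h.mul S.n2_maps).congr fun k => by
        show 8 - (8 - k) = k
        exact sub_sub_cancel 8 k
  by_cases h0 : Pm S N M 0
  · right
    have h0' : S.XZ 0 ⊓ N ≤ M := by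
      have e : S.XZ 0 = S.R.X 0 := by rw [xz_eq, Int.cast_zero]
      rw [e]; exact h0
    refine ⟨?_, n2_mem C hU h0, h0'⟩
    intro g hg
    obtain ⟨b, hb, n, b', hb', rfl, hn | ⟨hn, -⟩⟩ := key g hg
    · exact mem_P S ⟨b, J_mono (by norm_num) le_rfl hb, n, hn, b', J_mono (by norm_num) le_rfl hb', rfl⟩
    · refine mem_P S ⟨b, J_mono (by norm_num) le_rfl hb, n * S.n2, hn, S.n2 * b',
        mul_mem S.n2_mem (J_mono (by norm_num) le_rfl hb'), ?_⟩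
      calc b * n * b' = b * (n * (S.n2 * S.n2)) * b' := by rw [S.n2_sq, mul_one]
        _ = _ := by group
  · left
    intro g hg
    obtain ⟨b, hb, n, b', hb', rfl, hn | ⟨-, hn⟩⟩ := key g hg
    · exact mul_mem (mul_mem ⟨b, hb, 1, one_mem _, (mul_one b).symm⟩ ⟨1, one_mem _, n, hn, (one_mul n).symm⟩)
        ⟨b', hb', 1, one_mem _, (mul_one b').symm⟩
    · exact absurd hn h0

end Cfsg.Agent.H565.Br.F4
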